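import Cfsg.Agent.KO.F

/-! The centralizer of an involution in an alternating group. -/

set_option autoImplicit false

namespace KO

open Subgroup Equiv

theorem act_surj {ι : Type} [Finite ι] (a : Perm (ι × ZMod 2)) (h : a * act al0 = act al0 * a) :
    ∃ w, act w = a := by
  have h1 : ∀ p b, a (p, b + 1) = ((a (p, b)).1, (a (p, b)).2 + 1) := fun p b =>
    congrArg (fun s : Perm _ => s (p, b)) h
  have h2 : ∀ p b, a (p, b) = ((a (p, 0)).1, b + (a (p, 0)).2) := fun p b => by
    rcases z2 b with rfl | rfl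
    · simp
    · rw [add_comm, ← h1, zero_add]
  have h3 : Function.Injective fun p => (a (p, 0)).1 := fun p q e => by
    have : a (p, (a (p, 0)).2) = a (q, (a (q, 0)).2) := by
      rw [h2 p, h2 q, z2add, z2add]; exact Prod.ext e rfl
    exact congrArg Prod.fst (a.injective this)
  let s := Equiv.ofBijective _ (Finite.injective_iff_bijective.1 h3)
  refine ⟨⟨fun p => (a (s.symm p, 0)).2, s⟩, Equiv.ext fun ⟨p, b⟩ => ?_⟩
  rw [act_apply, h2]
  simp only [symm_apply_apply]
  rfl

theorem bridge0 (n r : ℕ) (β : Perm (Fin r)) (hβ : β * β = 1) (hs : Perm.sign β = -1)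
    (h3 : ∀ b : Perm (Fin r), Perm.sign b = 1 → b ^ 3 = 1)
    (α : alternatingGroup (Fin (4 * n + r))) (hα : orderOf α = 2)
    (hα4 : (α : Perm (Fin (4 * n + r))).support.card = 4 * n) :
    ∃ (j : W (Fin n × Bool) →* centralizer ({α} : Set (alternatingGroup (Fin (4 * n + r)))))
      (π : centralizer ({α} : Set (alternatingGroup (Fin (4 * n + r)))) →* W (Fin n × Bool)),
      (∀ w, π (j w) = w) ∧ ∀ k, π k = 1 → k ^ 3 = 1 := by
  classical
  have hfl : ∀ x : (Fin n × Bool) × ZMod 2, act al0 x ≠ x := fun x e => by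
    simpa [act_apply, al0] using congrArg Prod.snd e
  obtain ⟨e, he⟩ : ∃ e : ((Fin n × Bool) × ZMod 2) ⊕ Fin r ≃ Fin (4 * n + r),
      e.permCongr (Perm.sumCongr (act al0) 1) = α := by
    let e0 : ((Fin n × Bool) × ZMod 2) ⊕ Fin r ≃ Fin (4 * n + r) :=
      Fintype.equivOfCardEq (by simp; ring)
    have h1 : IsConj (e0.permCongr (Perm.sumCongr (act al0) 1)) α := by
      refine conj_of_card ?_ ?_ ?_
      · ext x
        obtain ⟨y, rfl⟩ := e0.surjective x
        rcases y with y | y <;> simp [pow_two, act_apply, al0, add_assoc, z2add]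
      · rw [← hα, ← Subgroup.coe_pow, pow_orderOf_eq_one]; rfl
      · have : (e0.permCongr (Perm.sumCongr (act al0) 1)).support =
            Finset.univ.map (Function.Embedding.inl.trans e0.toEmbedding) := by
          ext x
          obtain ⟨y, rfl⟩ := e0.surjective x
          rcases y with y | y <;> simp [hfl]
        rw [this, hα4]; simp; ring
    obtain ⟨g, hg⟩ := isConj_iff.1 h1
    exact ⟨e0.trans g, by rw [← hg]; ext x; simp [Perm.inv_def]⟩
  let Ψ : W (Fin n × Bool) × Perm (Fin r) →* Perm (Fin (4 * n + r)) :=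
    e.permCongrHom.toMonoidHom.comp ((Perm.sumCongrHom _ _).comp (act.prodMap (MonoidHom.id _)))
  have Ψd : ∀ w b, Ψ (w, b) = e.permCongr (Perm.sumCongr (act w) b) := fun _ _ => rfl
  have Ψi : Function.Injective Ψ := e.permCongrHom.injective.comp
    (Perm.sumCongrHom_injective.comp (act_inj.prodMap Function.injective_id))
  have Ψs : ∀ w b, Perm.sign (Ψ (w, b)) = Perm.sign (act w) * Perm.sign b := fun w b => by
    rw [Ψd, Perm.sign_permCongr, Perm.sign_sumCongr]
  have Ψα : Ψ (al0, 1) = α := he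
  have Ψr : ∀ k : Perm (Fin (4 * n + r)), k * α = α * k → k ∈ Ψ.range := fun k hk => by
    obtain ⟨k, rfl⟩ := e.permCongrHom.surjective k
    rw [← he] at hk
    have h1 : k * Perm.sumCongr (act al0) 1 = Perm.sumCongr (act al0) 1 * k :=
      e.permCongrHom.injective (by rw [map_mul, map_mul]; exact hk)
    obtain ⟨⟨a, b⟩, hab⟩ := Perm.mem_sumCongrHom_range_of_perm_mapsTo_inl (σ := k) (by
      rintro _ ⟨x, rfl⟩
      have h2 := congrArg (fun s : Perm _ => s (Sum.inl x)) h1
      rcases h4 : k (Sum.inl x) with y | y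
      · exact ⟨y, rfl⟩
      · simp only [Perm.mul_apply, h4, Perm.sumCongr_apply, Sum.map_inl, Sum.map_inr,
          Perm.coe_one, id] at h2
        exact absurd (Sum.inl_injective (k.injective (h2.trans h4.symm))) (hfl x))
    rw [← hab] at h1
    have h2 : (a, b) * (act al0, 1) = (act al0, 1) * (a, b) :=
      Perm.sumCongrHom_injective (by rw [map_mul, map_mul]; exact h1)
    obtain ⟨w, rfl⟩ := act_surj a (congrArg Prod.fst h2)
    exact ⟨(w, b), by rw [← hab]; rfl⟩
  let ς : ℤˣ →* Perm (Fin r) := MonoidHom.mk' (fun u => if u = 1 then 1 else β) fun a b => by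
    rcases Int.units_eq_one_or a with rfl | rfl <;> rcases Int.units_eq_one_or b with rfl | rfl <;>
      simp [hβ]
  have ςs : ∀ u, Perm.sign (ς u) = u := fun u => by
    rcases Int.units_eq_one_or u with rfl | rfl <;> simp [ς, hs]
  let i0 : W (Fin n × Bool) →* Perm (Fin (4 * n + r)) :=
    Ψ.comp ((MonoidHom.id _).prod (ς.comp (Perm.sign.comp act)))
  have i0d : ∀ w, i0 w = Ψ (w, ς (Perm.sign (act w))) := fun _ => rfl
  let i1 := i0.codRestrict (alternatingGroup _) fun w => by
    rw [Perm.mem_alternatingGroup, i0d, Ψs, ςs, Int.units_mul_self]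
  let p0 : centralizer ({α} : Set (alternatingGroup (Fin (4 * n + r)))) →* Ψ.range :=
    ((alternatingGroup _).subtype.comp (Subgroup.subtype _)).codRestrict _ fun k =>
      Ψr _ (congrArg Subtype.val (mem_centralizer_singleton_iff.1 k.2))
  let p1 := (MonoidHom.ofInjective Ψi).symm.toMonoidHom.comp p0
  have p1d : ∀ k, Ψ (p1 k) = k := fun k =>
    congrArg Subtype.val ((MonoidHom.ofInjective Ψi).apply_symm_apply (p0 k))
  refine ⟨i1.codRestrict _ fun w => ?_, (MonoidHom.fst _ _).comp p1, fun w => ?_, fun k hk => ?_⟩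
  · rw [mem_centralizer_singleton_iff]
    refine Subtype.ext ?_
    change i0 w * α = α * i0 w
    rw [← Ψα, i0d, ← map_mul, ← map_mul, Prod.mk_mul_mk, Prod.mk_mul_mk, al0_comm, mul_one, one_mul]
  · exact congrArg Prod.fst (Ψi (a₂ := (w, ς (Perm.sign (act w)))) (p1d _))
  · have h1 : p1 k = (1, (p1 k).2) := Prod.ext hk rfl
    have h2 := p1d k
    rw [h1] at h2
    have h4 : Perm.sign (p1 k).2 = 1 := by
      have := Perm.mem_alternatingGroup.1 k.1.2
      rwa [← h2, Ψs, map_one, map_one, one_mul] at this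
    refine Subtype.ext (Subtype.ext ?_)
    change (k.1.1 : Perm _) ^ 3 = 1
    rw [← h2, ← map_pow, Prod.pow_mk, h3 _ h4, one_pow]
    exact map_one Ψ

theorem bridge1 {n : ℕ} {G K : Type*} [Group G] [Finite G] [Group K] (j : W (Fin n × Bool) →* K)
    (π : K →* W (Fin n × Bool)) (h1 : ∀ w, π (j w) = w) (h3 : ∀ k, π k = 1 → k ^ 3 = 1)
    (h2 : ∀ H : Subgroup G, H.Normal → H.index ≠ 2) (t : G) (ht : orderOf t = 2) (S : Sylow 2 G)
    (htZ : ∀ s ∈ (S : Subgroup G), s * t = t * s) (φ : centralizer ({t} : Set G) ≃* K) :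
    ∃ j' : W (Fin n × Bool) →* G, Hy j' := by
  let j1 := φ.symm.toMonoidHom.comp j
  let π1 := π.comp φ.toMonoidHom
  have e1 : ∀ w, π1 (j1 w) = w := fun w => by simp [π1, j1, h1]
  have e3 : ∀ k, π1 k = 1 → k ^ 3 = 1 := fun k hk => φ.injective (by
    rw [map_pow, h3 (φ k) hk, map_one])
  have i1 : Function.Injective j1 := Function.LeftInverse.injective e1
  let t1 : centralizer ({t} : Set G) := ⟨t, mem_centralizer_singleton_iff.2 rfl⟩
  have c1 : ∀ k, k * t1 = t1 * k := fun k => Subtype.ext (mem_centralizer_singleton_iff.1 k.2)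
  have t2 : t1 * t1 = 1 := Subtype.ext (by
    change t * t = 1
    rw [← sq, ← ht, pow_orderOf_eq_one])
  have e4 : j1 (π1 t1) = t1 := by
    have a1 := e3 (j1 (π1 t1) * t1) (by rw [map_mul, e1, ← map_mul, t2, map_one])
    have a2 : (j1 (π1 t1) * t1) ^ 2 = 1 := by
      rw [Commute.mul_pow (c1 _), ← map_pow, ← map_pow, sq, t2, map_one, map_one, mul_one]
    rw [pow_succ, a2, one_mul] at a1
    exact (eq_inv_of_mul_eq_one_left a1).trans (inv_eq_of_mul_eq_one_left t2)
  have e5 : j1 al0 = t1 := by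
    rcases center_W (w := π1 t1) (fun u => by rw [← e1 u, ← map_mul, ← map_mul, c1]) with e | e
    · rw [e, map_one] at e4
      have : t = 1 := (congrArg Subtype.val e4).symm
      rw [this, orderOf_one] at ht
      exact absurd ht (by decide)
    · rwa [e] at e4
  have e6 : ((centralizer {t}).subtype.comp j1) al0 = t := congrArg Subtype.val e5
  refine ⟨(centralizer {t}).subtype.comp j1, (subtype_injective _).comp i1, ?_, fun g hg => ?_, h2⟩
  · rw [MonoidHom.range_comp, index_map_subtype]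
    refine Odd.mul ?_ ?_
    · have a1 := j1.range.card_mul_index
      have a2 := π1.ker.card_mul_index
      rw [index_ker, MonoidHom.range_eq_top.2 fun w => ⟨_, e1 w⟩, card_top, ← a1,
        ← Nat.card_congr (MonoidHom.ofInjective i1).toEquiv, mul_comm] at a2
      rw [← Nat.eq_of_mul_eq_mul_left Nat.card_pos a2]
      have a3 : IsPGroup 3 π1.ker := fun k => ⟨1, Subtype.ext (by simpa using e3 k.1 k.2)⟩
      obtain ⟨m, hm⟩ := a3.exists_card_eq
      rw [hm]
      exact Odd.pow (by decide)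
    · have : (S : Subgroup G) ≤ centralizer {t} := fun s hs =>
        mem_centralizer_singleton_iff.2 (htZ s hs)
      exact Nat.not_even_iff_odd.1 fun h => S.not_dvd_index (h.two_dvd.trans (index_dvd_of_le this))
  · rw [e6] at hg
    refine ⟨π1 ⟨g, mem_centralizer_singleton_iff.2 (mul_inv_eq_iff_eq_mul.1 hg)⟩, fun u u' e => ?_⟩
    rw [← e1 u, ← e1 u', ← map_inv, ← map_mul, ← map_mul]
    exact congrArg π1 (Subtype.ext e)

theorem kondo (n r : ℕ) (hr : r = 2 ∨ r = 3)
    (α : alternatingGroup (Fin (4 * n + r))) (hα : orderOf α = 2)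
    (hα4 : (α : Perm (Fin (4 * n + r))).support.card = 4 * n)
    {G : Type*} [Group G] [Finite G] (h2 : ∀ H : Subgroup G, H.Normal → H.index ≠ 2)
    (t : G) (ht : orderOf t = 2) (S : Sylow 2 G) (htZ : ∀ s ∈ (S : Subgroup G), s * t = t * s)
    (φ : centralizer ({t} : Set G) ≃* centralizer ({α} : Set (alternatingGroup (Fin (4 * n + r))))) :
    Nat.card {c : ConjClasses G // ∃ x ∈ c.carrier, orderOf x = 2} = n := by
  obtain ⟨β, h1, h3, h4⟩ : ∃ β : Perm (Fin r), β * β = 1 ∧ Perm.sign β = -1 ∧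
      ∀ b : Perm (Fin r), Perm.sign b = 1 → b ^ 3 = 1 := by
    rcases hr with rfl | rfl
    · exact ⟨swap 0 1, by decide, by decide, by decide⟩
    · exact ⟨swap 0 1, by decide, by decide, by decide⟩
  obtain ⟨j, π, e1, e2⟩ := bridge0 n r β h1 h3 h4 α hα hα4
  obtain ⟨j', H⟩ := bridge1 j π e1 e2 h2 t ht S htZ φ
  exact H.main

end KO
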