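import Cfsg.Agent.KO.W2

/-! Fusion of involutions in a group containing `2 ≀ Sym(2n)` with odd index. -/

set_option autoImplicit false

namespace KO

open Subgroup Equiv

variable {n : ℕ} {G : Type*} [Group G] [Finite G] {j : W (Fin n × Bool) →* G}

structure Hy (j : W (Fin n × Bool) →* G) : Prop where
  inj : Function.Injective j
  odd : Odd j.range.index
  ret : ∀ g, g * j al0 * g⁻¹ = j al0 → ∃ w, ∀ u u', g * j u * g⁻¹ = j u' → w * u * w⁻¹ = u'
  h2 : ∀ H : Subgroup G, H.Normal → H.index ≠ 2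

theorem Hy.conj (H : Hy j) {P : Subgroup G} (hP : IsPGroup 2 P) :
    ∃ h : G, ∀ x ∈ P, h * x * h⁻¹ ∈ j.range := by
  obtain ⟨S, hS⟩ := H5.exists_isSylowOf 2 j.range
  have h1 : H5.IsSylowOf 2 S ⊤ := ⟨le_top, hS.isPGroup, by
    rw [← relIndex_mul_relIndex S j.range ⊤ hS.le le_top, relIndex_top_right,
      Nat.prime_two.dvd_mul]
    rintro (h | h)
    · exact hS.not_dvd h
    · exact H.odd.not_two_dvd_nat h⟩
  obtain ⟨h, -, e⟩ := h1.exists_conj_le hP le_top
  exact ⟨h, fun x hx => hS.le (e (mem_map_of_mem _ hx))⟩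

theorem Hy.pull (H : Hy j) {P : Subgroup G} (hP : IsPGroup 2 P) : ∃ (h : G)
    (ψ : G → W (Fin n × Bool)) (Q : Subgroup (W (Fin n × Bool))), IsPGroup 2 Q ∧
      (∀ x ∈ P, j (ψ x) = h * x * h⁻¹ ∧ ψ x ∈ Q) ∧ ∀ E : VV n → G, Em E → (∀ a, E a ∈ P) →
        Em (fun a => ψ (E a)) ∧ ∀ x ∈ P, ∀ c f, Tr E x c f → Tr (fun a => ψ (E a)) (ψ x) c f := by
  obtain ⟨h, e⟩ := H.conj hP
  choose! ψ hψ using e
  refine ⟨h, ψ, (P.map (MulAut.conj h).toMonoidHom).comap j,
    (hP.map _).comap_of_injective _ H.inj, fun x hx => ⟨hψ x hx, ?_⟩, fun E hE hEP => ?_⟩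
  · rw [mem_comap, hψ x hx]; exact mem_map_of_mem _ hx
  · have e : (fun a => j (ψ (E a))) = fun a => h * E a * h⁻¹ := funext fun a => hψ _ (hEP a)
    refine ⟨Em.of_map j H.inj (e ▸ hE.conj h), fun x hx c f hT => Tr.of_map j H.inj ?_⟩
    rw [e, hψ x hx]
    exact hT.conj h

theorem Hy.sym (H : Hy j) {E : VV n → G} (hE : Em E) {x y : G} {c d : VV n} {f g : VV n → ZMod 2}
    (h : Tr E x c f) (h' : Tr E y d g) : f d = g c := by
  have key : ∀ {x y : G} {c d : VV n} {f g : VV n → ZMod 2}, Tr E x c f → Tr E y d g → f d = 0 →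
      f d = g c := fun h h' h0 => by
    obtain ⟨P, hP, h1, x, hx, y, hy, e, e'⟩ := h.pair h' hE h0
    obtain ⟨k, ψ, Q, -, -, h2⟩ := H.pull hP
    obtain ⟨h3, h4⟩ := h2 E hE h1
    exact W_sym h3 (by simpa using card_VV) (h4 _ hx _ _ e) (h4 _ hy _ _ e')
  rcases z2 (f d) with e | e
  · exact key h h' e
  rcases z2 (g c) with e' | e'
  · exact (key h' h e').symm
  · rw [e, e']

theorem Hy.fr (H : Hy j) {P : Subgroup G} (hP : IsPGroup 2 P) : ∃ h : G, ∀ E : VV n → G, Em E →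
    (∀ a, E a ∈ P) → ∀ c : Fin n → VV n, Fr E P c → h * E (∑ i, c i) * h⁻¹ = j al0 := by
  obtain ⟨h, ψ, Q, hQ, h1, h2⟩ := H.pull hP
  refine ⟨h, fun E hE hEP c hc => ?_⟩
  obtain ⟨h3, h4⟩ := h2 E hE hEP
  rw [← (h1 _ (hEP _)).1]
  refine congrArg j (W_fr h3 card_VV hQ ⟨hc.1, fun i => ?_⟩)
  obtain ⟨x, hx, f, hf⟩ := hc.2 i
  exact ⟨_, (h1 x hx).2, f, h4 x hx _ _ hf⟩

omit [Finite G] in
theorem Hy.em (H : Hy j) : Em fun a => j (η a) := η_em.map j H.inj

theorem Hy.g1 (H : Hy j) {β : Type*} (κ : VV n → β)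
    (hκ : ∀ x c f, Tr (fun a => j (η a)) x c f → ∀ a, κ (a + f a • c) = κ a) {g : G}
    (hg : ∀ a, g * j (η a) * g⁻¹ ∈ j.range) (a : VV n) :
    ∃ a' w, κ a' = κ a ∧ g * j (η a) * g⁻¹ = j (w * η a' * w⁻¹) := by
  choose E' hE using hg
  have e0 : (fun a => j (E' a)) = fun a => g * j (η a) * g⁻¹ := funext hE
  have hE' : Em E' := Em.of_map j H.inj (e0 ▸ H.em.conj g)
  let X : Subgroup G := fsub {x | ∀ a, ∃ a', x * j (η a) * x⁻¹ = j (η a') ∧ κ a' = κ a}
    (fun a => ⟨a, by simp, rfl⟩) fun x y hx hy a => by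
      obtain ⟨b, e, e'⟩ := hy a
      obtain ⟨c, e1, e1'⟩ := hx b
      exact ⟨c, by rw [← e1, ← e]; group, e1'.trans e'⟩
  have hX : ∀ {x c f}, Tr (fun a => j (η a)) x c f → x ∈ X := fun h a => ⟨_, h.ac a, hκ _ _ _ h a⟩
  obtain ⟨D, hD, d1, c, hc⟩ := ex_frame (η_em (n := n)) card_VV
  obtain ⟨D', hD', -, c', hc'⟩ := ex_frame hE' card_VV
  obtain ⟨P, hP, h1⟩ := H5.exists_isSylowOf_ge (q := 2) (Q := D.map j ⊓ X)
    ((hD.map j).to_le inf_le_left) inf_le_right
  obtain ⟨x, hx, h2⟩ := hP.exists_conj_le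
    (Q := (D'.map j).map (MulAut.conj g⁻¹).toMonoidHom ⊓ X)
    (((hD'.map j).map _).to_le inf_le_left) inf_le_right
  obtain ⟨h, h3⟩ := H.fr hP.isPGroup
  have h4 : ∀ a, j (η a) ∈ P := fun a => h1 ⟨mem_map_of_mem _ (d1 a), fun b =>
    ⟨b, by rw [H.em.comm a b, mul_inv_cancel_right], rfl⟩⟩
  have h5 := h3 _ H.em h4 c ⟨hc.1, fun i => by
    obtain ⟨w, hw, f, hf⟩ := hc.2 i
    exact ⟨_, h1 ⟨mem_map_of_mem _ hw, hX (hf.map j)⟩, f, hf.map j⟩⟩
  have h6 := h3 _ (H.em.conj x) (fun a => by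
    obtain ⟨b, e, -⟩ := hx a
    rw [e]; exact h4 b) c' ⟨hc'.1, fun i => by
    obtain ⟨w, hw, f, hf⟩ := hc'.2 i
    have h7 := (hf.map j).conj g⁻¹
    simp only [hE, inv_inv, mul_assoc, inv_mul_cancel_left, inv_mul_cancel, mul_one] at h7
    refine ⟨_, h2 (mem_map_of_mem _ ⟨?_, hX h7⟩), f, h7.conj x⟩
    exact ⟨_, mem_map_of_mem _ hw, by simp [mul_assoc]⟩⟩
  rw [W_fr η_em card_VV hD hc] at h5
  have h7 := hE (∑ i, c' i)
  rw [W_fr hE' card_VV hD' hc'] at h7
  obtain ⟨w, hw⟩ := H.ret (g * x⁻¹) (by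
    rw [← h5, mul_left_inj, mul_right_inj] at h6
    conv_lhs => rw [← h6]
    rw [h7]; group)
  obtain ⟨a', e, e'⟩ := hx a
  exact ⟨a', w, e', by rw [hw (η a') (E' a) (by rw [← e, hE]; group), hE]⟩

/-- transvections on `F` -/
def T (j : W (Fin n × Bool) →* G) (c : VV n) (f : VV n → ZMod 2) : Prop :=
  ∃ x, Tr (fun a => j (η a)) x c f

variable {c d : VV n} {f g : VV n → ZMod 2} {i k : Fin n}

theorem Hy.tsym (H : Hy j) (h : T j c f) (h' : T j d g) : f d = g c :=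
  H.sym H.em h.choose_spec h'.choose_spec

omit [Finite G] in
theorem Hy.t0 (H : Hy j) (h : T j c f) (h0 : f al = 0) : ∃ i, c = cz i ∧ ∀ a, f a = (a i).2 := by
  obtain ⟨x, hx⟩ := h
  obtain ⟨w, hw⟩ := H.ret x (by simpa [h0, η_al] using hx.ac al)
  exact DH_std (w := w) ⟨hx.ne, hx.ex, fun a => hw _ _ (hx.ac a)⟩

theorem Hy.tcj (H : Hy j) (h : T j c f) (h' : T j d g) (h1 : f d = 1) :
    T j (d + c) fun a => g a + f a := by
  have h2 := H.tsym h h'
  obtain ⟨x, hx⟩ := h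
  obtain ⟨y, hy⟩ := h'
  have := hx.cj hy H.em
  rw [← h2, h1, one_smul] at this
  exact ⟨_, by simpa using this⟩

omit [Finite G] in
theorem tau (i : Fin n) : T j (cz i) fun a => (a i).2 :=
  ⟨_, (ex_tau i).choose_spec.map j⟩

omit [Finite G] in
theorem tbp (h : T j c f) (ρ : Perm (Fin n)) :
    T j (fun i => c (ρ⁻¹ i)) fun a => f fun i => a (ρ i) := by
  obtain ⟨x, hx⟩ := h
  obtain ⟨w, hw⟩ := ex_bp ρ
  have hw' : ∀ a, j w * j (η a) * (j w)⁻¹ = j (η fun i => a (ρ⁻¹ i)) := fun a => by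
    rw [← hw, map_mul, map_mul, map_inv]
  refine ⟨j w * x * (j w)⁻¹, fun e => hx.ne (funext fun i => by simpa using congrFun e (ρ i)), ?_,
    fun a => ?_⟩
  · obtain ⟨a, ha⟩ := hx.ex
    exact ⟨fun i => a (ρ⁻¹ i), by simpa using ha⟩
  · have := (hx.conj (j w)).ac fun i => a (ρ i)
    simp only [hw', ai, Pi.add_apply, Pi.smul_apply] at this
    exact this

omit [Finite G] in
theorem Hy.tadd (H : Hy j) (h : T j c f) (a b : VV n) : f (a + b) = f a + f b :=
  h.choose_spec.add H.em a b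

theorem sum_cz : ∑ i : Fin n, cz i = al := by
  funext k
  simp [cz, al, Finset.sum_apply, Pi.single_apply]

/-- transvections moving the central involution -/
def NT (j : W (Fin n × Bool) →* G) (i : Fin n) (c : VV n) (f : VV n → ZMod 2) : Prop :=
  T j c f ∧ ∀ k, f (cz k) = if k = i then 1 else 0

theorem Hy.nt (H : Hy j) (h : T j c f) (h1 : f al = 1) : ∃ i, NT j i c f := by
  rw [← sum_cz, h.choose_spec.sum H.em] at h1
  have h2 : ∃ i, f (cz i) = 1 := by
    by_contra h2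
    rw [Finset.sum_eq_zero fun i _ => (z2 _).resolve_right fun e => h2 ⟨i, e⟩] at h1
    exact absurd h1 (by decide)
  obtain ⟨i, hi⟩ := h2
  refine ⟨i, h, fun k => ?_⟩
  split_ifs with hk
  · rw [hk, hi]
  refine (z2 _).resolve_right fun hk' => ?_
  have h3 : ∃ l, (l ≠ i ∧ l ≠ k) ∧ f (cz l) = 1 := by
    by_contra h3
    rw [Fintype.sum_eq_add i k (Ne.symm hk) fun l hl => (z2 _).resolve_right fun e => h3 ⟨l, hl, e⟩,
      hi, hk'] at h1
    exact absurd h1 (by decide)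
  obtain ⟨l, ⟨l1, l2⟩, hl⟩ := h3
  have y : ∀ m, f (cz m) = 1 → (c m).2 = 1 := fun m e => (H.tsym (tau m) h).trans e
  have t1 := H.tcj (tau i) h (y i hi)
  have t2 := H.tcj (tau k) t1 (by simp [y k hk', cz_snd])
  have t3 := H.tcj (tau l) h (y l hl)
  have t4 := H.tcj t2 t3 (by
    simp only [H.tadd h, h.choose_spec.fc H.em, hl, Pi.add_apply, Prod.snd_add, y i hi, y k hk',
      cz_snd]
    decide)
  obtain ⟨m, e, -⟩ := H.t0 t4 (by simp [al, z2add])
  rw [add_assoc c (cz i), add_add_add_comm, vadd_self, zero_add] at e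
  have e1 := congrFun e i
  have e2 := congrFun e k
  by_cases hm : m = i
  · simp [cz, hm, hk, l2.symm] at e2
  · simp [cz, Ne.symm hm, Ne.symm hk, l1.symm] at e1

theorem Hy.nty (H : Hy j) (h : NT j i c f) (k : Fin n) : (c k).2 = if k = i then 1 else 0 :=
  (H.tsym (tau k) h.1).trans (h.2 k)

omit [Finite G] in
theorem Hy.ntal (H : Hy j) (h : NT j i c f) : f al = 1 := by
  rw [← sum_cz, h.1.choose_spec.sum H.em]
  simp [h.2]

theorem Hy.ntu (H : Hy j) (h : NT j i c f) (h' : NT j i d g) (hk : k ≠ i) : c k = d k := by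
  have key : ∀ {d g}, NT j i d g → f d = 1 → c k = d k := fun {d g} h' h1 => by
    obtain ⟨m, e, e'⟩ := H.t0 (H.tcj h.1 h'.1 h1) (by rw [H.ntal h, H.ntal h', z2add])
    have e1 := e' d
    rw [h'.1.choose_spec.fc H.em, h1, H.nty h', zero_add] at e1
    obtain rfl : m = i := by
      by_contra hm
      rw [if_neg hm] at e1
      exact absurd e1 (by decide)
    have e2 := congrFun e k
    rw [cz, Pi.single_eq_of_ne hk] at e2
    exact (v_eq_of_add e2).symm
  rcases z2 (f d) with e | e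
  · have := key (d := d + cz i) (g := fun a => g a + (a i).2)
      ⟨H.tcj (tau i) h'.1 (by rw [H.nty h', if_pos rfl]), fun m => by simp only [cz_snd, add_zero, h'.2]⟩
      (by rw [H.tadd h.1, e, h.2, if_pos rfl, zero_add])
    rwa [Pi.add_apply, cz, Pi.single_eq_of_ne hk, add_zero] at this
  · exact key h' e

omit [Finite G] in
theorem ntbp (h : NT j i c f) (ρ : Perm (Fin n)) :
    NT j (ρ i) (fun i => c (ρ⁻¹ i)) fun a => f fun i => a (ρ i) := by
  refine ⟨tbp h.1 ρ, fun k => ?_⟩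
  have : (fun i => cz k (ρ i)) = cz (ρ⁻¹ k) := by
    funext m
    simp [cz, Pi.single_apply, Equiv.eq_symm_apply]
  simp only [this, h.2]
  simp [Equiv.symm_apply_eq]

theorem Hy.xi (H : Hy j) : ∃ ξ : ZMod 2, ∀ i c f, NT j i c f → ∀ k, k ≠ i → (c k).1 = ξ := by
  by_cases h : ∃ i c f k, NT j i c f ∧ k ≠ i
  · obtain ⟨i, c, f, k, h, hk⟩ := h
    refine ⟨(c k).1, fun i' c' f' h' k' hk' => ?_⟩
    have h1 := ntbp h (swap (swap i i' k) k' * swap i i')
    have h2 : swap i i' k ≠ i' := fun e => hk ((swap i i').injective (by rw [e]; simp))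
    rw [Perm.mul_apply, swap_apply_left, swap_apply_of_ne_of_ne h2.symm hk'.symm] at h1
    rw [H.ntu h' h1 hk']
    simp
  · exact ⟨0, fun i c f h' k hk => absurd ⟨i, c, f, k, h', hk⟩ h⟩

theorem Hy.cross (H : Hy j) (h : NT j i c f) (h' : NT j k d g) (hk : i ≠ k) : f d = 0 := by
  refine (z2 _).resolve_right fun h1 => ?_
  obtain ⟨m, e, -⟩ := H.t0 (H.tcj h.1 h'.1 h1) (by rw [H.ntal h, H.ntal h', z2add])
  have := congrArg Prod.snd (congrFun e i)
  rw [cz_snd, Pi.add_apply, Prod.snd_add, H.nty h, H.nty h', if_neg hk, if_pos rfl] at this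
  exact absurd this (by decide)

theorem Hy.ex (H : Hy j) (i : Fin n) : ∃ c f, NT j i c f := by
  have h : ∃ i c f, NT j i c f := by
    by_contra h
    obtain ⟨g, h1, w, h2, h3⟩ := ext_tt H.h2 j H.inj H.odd (Perm.sign.comp sh)
      (H.em.sq (Pi.single i (0, 1))) H.em.pg ⟨_, rfl⟩ (by rintro _ ⟨a, rfl⟩; exact H.em.comm _ _)
    obtain ⟨a, u, e, e'⟩ := H.g1 (fun a => Perm.sign (η a).s) (fun x c f hx a => by
      obtain ⟨m, rfl, -⟩ := H.t0 ⟨x, hx⟩ ((z2 _).resolve_right fun e => by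
        obtain ⟨i, hi⟩ := H.nt ⟨x, hx⟩ e
        exact h ⟨i, c, f, hi⟩)
      congr 1
      ext1 z
      simp [η_s, cz_snd]) (g := g⁻¹) (fun a => by simpa using h1 _ ⟨a, rfl⟩) (Pi.single i (0, 1))
    rw [inv_inv, h2] at e'
    rw [H.inj e'] at h3
    have h4 : Perm.sign (u.s * (η a).s * u.s⁻¹) = 1 := h3
    rw [sign_sg] at e
    rw [Perm.sign_mul, Perm.sign_mul, Perm.sign_inv, e, mul_right_comm, Int.units_mul_self] at h4
    exact absurd h4 (by decide)
  obtain ⟨k, c, f, h⟩ := h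
  have := ntbp h (swap k i)
  rw [swap_apply_left] at this
  exact ⟨_, _, this⟩

/-- the invariant -/
def κ (ξ : ZMod 2) (a : VV n) : ℕ := wt (a + (ξ * Ly a) • al)

theorem κ_conj (ξ : ZMod 2) {w : W (Fin n × Bool)} {a b : VV n} (h : w * η a * w⁻¹ = η b) :
    κ ξ a = κ ξ b := by
  refine wt_conj (w := w) ?_
  rw [Ly_conj h, η_em.add, η_em.add, ← h]
  rcases z2 (ξ * Ly b) with e | e <;> rw [e]
  · simp [η_em.zero]
  · rw [one_smul, η_al, ← al0_comm, ← al0_comm, ← mul_assoc w, ← al0_comm]; group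

theorem Hy.κ_inv (H : Hy j) {ξ : ZMod 2}
    (hξ : ∀ i c f, NT j i c f → ∀ k, k ≠ i → (c k).1 = ξ) (h : T j c f) (a : VV n) :
    κ ξ (a + f a • c) = κ ξ a := by
  rcases z2 (f al) with e | e
  · obtain ⟨m, rfl, e'⟩ := H.t0 h e
    obtain ⟨w, hw⟩ := ex_tau m
    rw [e']
    exact (κ_conj ξ (hw.ac a)).symm
  obtain ⟨i, hi⟩ := H.nt h e
  have Z : ∀ a : VV n, (a + (ξ * Ly a) • al : VV n) i = 0 → f a = 0 := fun a ha => by
    choose cs fs hs using H.ex
    have a2 : (a i).2 = 0 := by simpa [al] using congrArg Prod.snd ha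
    have a1 : (a i).1 = ξ * Ly a := v_eq_of_add (by simpa [al] using congrArg Prod.fst ha)
    have h1 : a + ∑ k, (a k).2 • cs k = ∑ m, ((a + ∑ k, (a k).2 • cs k) m).1 • cz m := by
      funext m
      refine Prod.ext (by simp [cz, Finset.sum_apply, Pi.single_apply]) ?_
      simp [Finset.sum_apply, Prod.snd_sum, cz_snd, H.nty (hs _), z2add]
    have h2 := congrArg f h1
    rw [H.tadd h, h.choose_spec.sum H.em, h.choose_spec.sum H.em] at h2
    simp only [h.choose_spec.smul H.em, hi.2, mul_ite, mul_one, mul_zero, Finset.sum_ite_eq',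
      Finset.mem_univ, if_true] at h2
    rw [Finset.sum_eq_zero fun k _ => ?_, add_zero, Pi.add_apply, Prod.fst_add, Finset.sum_apply,
      Prod.fst_sum, a1, Ly, Finset.mul_sum, ← Finset.sum_add_distrib,
      Finset.sum_eq_zero fun k _ => ?_] at h2
    · exact h2
    · by_cases hk : i = k
      · simp [← hk, a2]
      · simp [hξ _ _ _ (hs k) i hk, mul_comm, z2add]
    · by_cases hk : i = k
      · simp [← hk, a2]
      · rw [H.cross hi (hs k) hk, mul_zero]
  rcases z2 (f a) with e' | e'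
  · rw [e', zero_smul, add_zero]
  rw [e', one_smul]
  unfold κ wt
  congr 1
  ext k
  simp only [Finset.mem_filter, Finset.mem_univ, true_and]
  by_cases hk : k = i
  · rw [hk]
    refine iff_of_true (fun h1 => ?_) fun h1 => ?_
    · have := Z _ h1
      rw [H.tadd h, h.choose_spec.fc H.em, e'] at this
      exact absurd this (by decide)
    · rw [Z _ h1] at e'
      exact absurd e' (by decide)
  · have h1 : Ly (a + c) = Ly a + 1 := by
      simp [Ly, Finset.sum_add_distrib, H.nty hi]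
    have h2 : c k = (ξ, 0) := Prod.ext (hξ _ _ _ hi k hk) (by rw [H.nty hi, if_neg hk])
    have h3 : (a + c + (ξ * Ly (a + c)) • al : VV n) k = (a + (ξ * Ly a) • al : VV n) k := by
      refine Prod.ext ?_ (by simp [h2, al])
      simp only [h1, Pi.add_apply, h2, al, Pi.smul_apply, Prod.fst_add, Prod.smul_fst, smul_eq_mul,
        mul_one]
      linear_combination z2add ξ
    rw [h3]

theorem Hy.low (H : Hy j) : ∃ ξ : ZMod 2, ∀ a b, IsConj (j (η a)) (j (η b)) → κ ξ a = κ ξ b := by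
  obtain ⟨ξ, hξ⟩ := H.xi
  refine ⟨ξ, fun a b h => ?_⟩
  obtain ⟨g, hg⟩ := isConj_iff.1 h
  obtain ⟨P, hP, h1⟩ := H5.exists_isSylowOf_ge (q := 2) (K := centralizer {j (η b)}) H.em.pg (by
    rintro _ ⟨c, rfl⟩
    exact mem_centralizer_singleton_iff.2 (H.em.comm _ _))
  obtain ⟨y, hy, h2⟩ := hP.exists_conj_le (H.em.conj g).pg (by
    rintro _ ⟨c, rfl⟩
    rw [mem_centralizer_singleton_iff, ← hg]
    exact (H.em.conj g).comm _ _)
  obtain ⟨k, hk⟩ := H.conj hP.isPGroup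
  have hκ := fun x c f (hx : Tr (fun a => j (η a)) x c f) => H.κ_inv hξ ⟨x, hx⟩
  obtain ⟨b', w, e1, e2⟩ := H.g1 (κ ξ) hκ (g := k) (fun c => hk _ (h1 ⟨c, rfl⟩)) b
  obtain ⟨a', w', e3, e4⟩ := H.g1 (κ ξ) hκ (g := k * y * g) (fun c => by
    have := hk _ (h2 (mem_map_of_mem _ ⟨c, rfl⟩))
    simpa [mul_assoc] using this) a
  have e5 : k * y * g * j (η a) * (k * y * g)⁻¹ = k * j (η b) * k⁻¹ := by
    calc _ = k * (y * (g * j (η a) * g⁻¹) * y⁻¹) * k⁻¹ := by group
      _ = _ := by rw [hg, mem_centralizer_singleton_iff.1 hy, mul_inv_cancel_right]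
  rw [e4, e2] at e5
  rw [← e1, ← e3]
  exact κ_conj ξ (w := w⁻¹ * w') (by
    rw [mul_inv_rev, inv_inv, mul_assoc w⁻¹, ← mul_assoc, mul_assoc w⁻¹, H.inj e5]; group)

/-- the class representatives -/
def zz (k : ℕ) : VV n := fun i => if i < k then (1, 0) else 0

theorem κ_zz (ξ : ZMod 2) {k : ℕ} (hk : k ≤ n) : κ ξ (zz k : VV n) = k := by
  have : Ly (zz k : VV n) = 0 := Finset.sum_eq_zero fun i _ => by
    simp only [zz]; split_ifs <;> rfl
  rw [κ, this, mul_zero, zero_smul, add_zero, wt]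
  simp [zz, Fin.card_filter_val_lt, hk]

theorem Hy.up (H : Hy j) (m : ℕ) : ∀ a : VV n, a ≠ 0 →
    (Finset.univ.filter fun i => (a i).2 ≠ 0).card ≤ m →
      ∃ k : Fin n, IsConj (j (η a)) (j (η (zz (k + 1)))) := by
  have h0 : ∀ a : VV n, a ≠ 0 → (∀ i, (a i).2 = 0) →
      ∃ k : Fin n, IsConj (j (η a)) (j (η (zz (k + 1)))) := fun a ha h => by
    have h1 : wt a ≤ n := (Finset.card_le_univ _).trans (by simp)
    have h2 : wt a ≠ 0 := fun e => ha (funext fun i => by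
      by_contra hi
      exact Finset.notMem_empty i (Finset.card_eq_zero.1 e ▸ Finset.mem_filter.2 ⟨by simp, hi⟩))
    obtain ⟨ρ, hρ⟩ := Perm.exists_map_finset_eq (Finset.univ.filter fun i => a i ≠ 0)
      (Finset.univ.filter fun i : Fin n => (i : ℕ) < wt a)
      (by rw [Fin.card_filter_val_lt, min_eq_right h1]; rfl)
    obtain ⟨w, hw⟩ := ex_bp ρ
    refine ⟨⟨wt a - 1, by omega⟩, isConj_iff.2 ⟨j w, ?_⟩⟩
    rw [← map_inv, ← map_mul, ← map_mul, hw]
    congr 2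
    funext i
    have h3 := Finset.ext_iff.1 hρ i
    simp only [Finset.mem_map_equiv, Finset.mem_filter, Finset.mem_univ, true_and] at h3
    simp only [zz, Nat.sub_add_cancel (Nat.pos_of_ne_zero h2), ← h3, Perm.inv_def]
    split_ifs with h4
    · exact Prod.ext ((z2 _).resolve_left fun e => h4 (Prod.ext e (h _))) (h _)
    · exact not_not.1 h4
  induction m with
  | zero =>
    intro a ha h
    refine h0 a ha fun i => ?_
    by_contra hi
    exact Finset.notMem_empty i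
      (Finset.card_eq_zero.1 (Nat.le_zero.1 h) ▸ Finset.mem_filter.2 ⟨by simp, hi⟩)
  | succ m ih =>
    intro a ha h
    by_cases h1 : ∀ i, (a i).2 = 0
    · exact h0 a ha h1
    push Not at h1
    obtain ⟨i, hi⟩ := h1
    have hi' : (a i).2 = 1 := (z2 _).resolve_left hi
    obtain ⟨c, f, hc⟩ := H.ex i
    have key : ∀ {c f}, T j c f → ∀ b, IsConj (j (η b)) (j (η (b + f b • c))) := fun h b =>
      isConj_iff.2 ⟨_, h.choose_spec.ac b⟩
    have h2 : ∃ b, IsConj (j (η a)) (j (η b)) ∧ f b = 1 ∧ ∀ k, (b k).2 = (a k).2 := by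
      rcases z2 (f a) with e | e
      · exact ⟨_, key (tau i) a, by rw [hi', one_smul, H.tadd hc.1, e, hc.2, if_pos rfl, zero_add],
          fun k => by simp [cz_snd]⟩
      · exact ⟨a, IsConj.refl _, e, fun _ => rfl⟩
    obtain ⟨b, e1, e2, e3⟩ := h2
    have e4 := e1.trans (key hc.1 b)
    obtain ⟨k, hk⟩ := ih (b + f b • c) (fun e => ha (H.em.inj (by
      rw [e, H.em.zero, isConj_one_left] at e4
      exact e4.trans H.em.zero.symm))) (by
      refine Nat.le_of_lt_succ (lt_of_lt_of_le (Finset.card_lt_card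
        ((Finset.ssubset_iff_of_subset fun r hr => ?_).2 ⟨i, by simpa using hi, ?_⟩)) h)
      · rw [Finset.mem_filter] at hr ⊢
        refine ⟨hr.1, fun e => hr.2 ?_⟩
        have : r ≠ i := fun e' => hi (e' ▸ e)
        simp [e3, e, H.nty hc, this]
      · simp [e2, e3, hi', H.nty hc, z2add])
    exact ⟨k, e4.trans hk⟩

theorem Hy.main (H : Hy j) :
    Nat.card {c : ConjClasses G // ∃ x ∈ c.carrier, orderOf x = 2} = n := by
  obtain ⟨ξ, hξ⟩ := H.low
  have h1 : ∀ k : Fin n, orderOf (j (η (zz (k + 1)))) = 2 := fun k =>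
    orderOf_eq_prime (by rw [sq]; exact H.em.sq _) fun e => by
      have := congrFun (H.em.inj (e.trans H.em.zero.symm)) ⟨0, k.pos⟩
      simp [zz] at this
  refine (Nat.card_eq_of_bijective (fun k : Fin n => (⟨ConjClasses.mk (j (η (zz (k + 1)))), _,
    ConjClasses.mem_carrier_mk, h1 k⟩ : {c : ConjClasses G // ∃ x ∈ c.carrier, orderOf x = 2}))
    ⟨fun k l e => ?_, ?_⟩).symm.trans (Nat.card_fin n)
  · have := hξ _ _ (ConjClasses.mk_eq_mk_iff_isConj.1 (congrArg Subtype.val e))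
    rw [κ_zz ξ k.2, κ_zz ξ l.2] at this
    exact Fin.ext (by omega)
  · rintro ⟨c, x, hx, h2⟩
    have h3 : x * x = 1 := by rw [← sq, ← h2, pow_orderOf_eq_one]
    obtain ⟨g, -, w, e, e'⟩ := ext_tt H.h2 j H.inj H.odd par h3 (S := zpowers x)
      (IsPGroup.of_card (n := 1) (by rw [Nat.card_zpowers, h2, pow_one])) (mem_zpowers x) (by
        rintro _ ⟨k, rfl⟩; exact (Commute.zpow_left (Commute.refl x) k).eq)
    obtain ⟨u, a, ha⟩ := inv_par (w := w) (H.inj (by
      rw [map_mul, ← e, map_one]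
      calc _ = g⁻¹ * (x * x) * g := by group
        _ = _ := by rw [h3]; group)) e'
    have h4 : IsConj x (j (η a)) := isConj_iff.2 ⟨(g * j u)⁻¹, by
      rw [← ha, map_mul, map_mul, map_inv, ← e]; group⟩
    obtain ⟨k, hk⟩ := H.up _ a (fun e => by
      rw [e, H.em.zero, isConj_one_left] at h4
      rw [h4, orderOf_one] at h2
      exact absurd h2 (by decide)) le_rfl
    exact ⟨k, Subtype.ext ((ConjClasses.mk_eq_mk_iff_isConj.2 (h4.trans hk).symm).trans
      (ConjClasses.mem_carrier_iff_mk_eq.1 hx))⟩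

end KO
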