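import Cfsg.Agent.KO.T

/-! The group `2 ≀ Sym ι` and its elementary abelian subgroups of maximal rank. -/

set_option autoImplicit false

namespace KO

open Subgroup Equiv

@[ext] structure W (ι : Type) where
  v : ι → ZMod 2
  s : Perm ι

variable {ι : Type}

instance instMulW : Mul (W ι) := ⟨fun a b => ⟨fun p => a.v p + b.v (a.s⁻¹ p), a.s * b.s⟩⟩
instance instOneW : One (W ι) := ⟨⟨0, 1⟩⟩
instance instInvW : Inv (W ι) := ⟨fun a => ⟨fun p => a.v (a.s p), a.s⁻¹⟩⟩

@[simp] theorem mul_v (a b : W ι) (p : ι) : (a * b).v p = a.v p + b.v (a.s⁻¹ p) := rfl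
@[simp] theorem mul_s (a b : W ι) : (a * b).s = a.s * b.s := rfl
@[simp] theorem one_v : (1 : W ι).v = 0 := rfl
@[simp] theorem one_s : (1 : W ι).s = 1 := rfl
@[simp] theorem inv_v (a : W ι) (p : ι) : (a⁻¹).v p = a.v (a.s p) := rfl
@[simp] theorem inv_s (a : W ι) : (a⁻¹).s = a.s⁻¹ := rfl

instance instGroupW : Group (W ι) := Group.ofLeftAxioms
  (fun a b c => W.ext (funext fun p => by simp [add_assoc]) (mul_assoc _ _ _))
  (fun a => W.ext (funext fun p => by simp) (one_mul _))
  (fun a => W.ext (funext fun p => by simp [z2add]) (inv_mul_cancel _))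

instance instFiniteW [Finite ι] : Finite (W ι) :=
  Finite.of_injective (fun a : W ι => (a.v, a.s)) fun _ _ h =>
    W.ext (congrArg Prod.fst h) (congrArg Prod.snd h)

/-- the central involution -/
def al0 : W ι := ⟨fun _ => 1, 1⟩

theorem al0_comm (w : W ι) : al0 * w = w * al0 :=
  W.ext (funext fun p => by simp [al0, add_comm]) (by simp [al0])

/-- the permutation part as a homomorphism -/
def sh : W ι →* Perm ι := MonoidHom.mk' W.s mul_s

/-- the action on `ι × ZMod 2` -/
def act : W ι →* Perm (ι × ZMod 2) := MonoidHom.mk' (fun w =>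
  { toFun x := (w.s x.1, x.2 + w.v (w.s x.1))
    invFun x := (w.s⁻¹ x.1, x.2 + w.v x.1)
    left_inv x := by simp [add_assoc, z2add]
    right_inv x := by simp [add_assoc, z2add] })
  fun a b => by ext x <;> simp [add_comm, add_left_comm]

theorem act_apply (w : W ι) (x : ι × ZMod 2) : act w x = (w.s x.1, x.2 + w.v (w.s x.1)) := rfl

theorem act_inj : Function.Injective (act : W ι →* _) := by
  refine (injective_iff_map_eq_one _).2 fun w h => ?_
  have h1 : ∀ p, (w.s p, 0 + w.v (w.s p)) = (p, 0) := fun p => by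
    rw [← act_apply w (p, 0), h]; rfl
  have h2 : ∀ p, w.s p = p := fun p => congrArg Prod.fst (h1 p)
  exact W.ext (funext fun p => by simpa [h2] using congrArg Prod.snd (h1 p)) (Equiv.ext h2)

theorem center_W [DecidableEq ι] {w : W ι} (h : ∀ u, u * w = w * u) : w = 1 ∨ w = al0 := by
  have h1 : ∀ p, w.s p = p := fun p => by
    have := congrFun (congrArg W.v (h ⟨Pi.single p 1, 1⟩)) (w.s p)
    simp only [mul_v, inv_one, Perm.coe_one, id, Perm.coe_inv, symm_apply_apply,
      Pi.single_eq_same, add_comm (w.v _), add_left_inj] at this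
    by_contra hp
    rw [Pi.single_eq_of_ne hp] at this
    exact absurd this (by decide)
  have h1' : w.s = 1 := Equiv.ext h1
  have h2 : ∀ p q, w.v p = w.v q := fun p q => by
    simpa using congrFun (congrArg W.v (h ⟨0, swap p q⟩)) q
  rcases isEmpty_or_nonempty ι with _ | ⟨⟨p⟩⟩
  · exact Or.inl (W.ext (Subsingleton.elim _ _) h1')
  · exact (z2 (w.v p)).imp (fun e => W.ext (funext fun q => (h2 q p).trans e) h1')
      fun e => W.ext (funext fun q => (h2 q p).trans e) h1'

/-- membership in the elementary abelian subgroup attached to `μ` -/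
structure InA (μ : Perm ι) (w : W ι) : Prop where
  v : ∀ p, w.v (μ p) = w.v p
  s : ∀ p, w.s p = p ∨ w.s p = μ p

variable {μ : Perm ι} {a b : W ι}

theorem InA.vs (ha : InA μ a) (hb : InA μ b) (p : ι) : b.v (a.s p) = b.v p := by
  rcases ha.s p with e | e <;> rw [e]
  exact hb.v p

theorem InA.vi (ha : InA μ a) (hb : InA μ b) (p : ι) : b.v (a.s⁻¹ p) = b.v p := by
  rw [← ha.vs hb]; simp

theorem smu (hμ : ∀ p, μ (μ p) = p) {s : Perm ι} (h : ∀ p, s p = p ∨ s p = μ p) (p : ι) :
    s (μ p) = μ (s p) := by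
  rcases h p with e | e <;> rcases h (μ p) with e' | e'
  · rw [e, e']
  · rw [hμ] at e'
    have := s.injective (e'.trans e.symm)
    rw [this, e, this]
  · have := s.injective (e'.trans e.symm)
    rw [this, e, this, this]
  · rw [e, e']

theorem ssq (hμ : ∀ p, μ (μ p) = p) {s : Perm ι} (h : ∀ p, s p = p ∨ s p = μ p) (p : ι) :
    s (s p) = p := by
  rcases h p with e | e
  · rw [e, e]
  · rw [e, smu hμ h, e, hμ]

theorem smul' (hμ : ∀ p, μ (μ p) = p) {s s' : Perm ι} (h : ∀ p, s p = p ∨ s p = μ p)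
    (h' : ∀ p, s' p = p ∨ s' p = μ p) (p : ι) : s (s' p) = p ∨ s (s' p) = μ p := by
  rcases h' p with e | e <;> rw [e]
  · exact h p
  · rcases h (μ p) with e' | e'
    · exact Or.inr e'
    · exact Or.inl (e'.trans (hμ p))

theorem sinv (hμ : ∀ p, μ (μ p) = p) {s : Perm ι} (h : ∀ p, s p = p ∨ s p = μ p) : s⁻¹ = s :=
  inv_eq_of_mul_eq_one_left (Equiv.ext (ssq hμ h))

/-- the elementary abelian subgroup attached to `μ` -/
def AA (hμ : ∀ p, μ (μ p) = p) : Subgroup (W ι) where
  carrier := {w | InA μ w}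
  mul_mem' {a b} ha hb := ⟨fun p => by
    rw [mul_v, mul_v, InA.vi ha hb, InA.vi ha hb, ha.v, hb.v], smul' hμ ha.s hb.s⟩
  one_mem' := ⟨fun _ => rfl, fun _ => Or.inl rfl⟩
  inv_mem' {a} ha := ⟨fun p => by rw [inv_v, inv_v, InA.vs ha ha, InA.vs ha ha, ha.v],
    by rw [inv_s, sinv hμ ha.s]; exact ha.s⟩

theorem InA.comm (hμ : ∀ p, μ (μ p) = p) (ha : InA μ a) (hb : InA μ b) : a * b = b * a := by
  refine W.ext (funext fun p => ?_) (Equiv.ext fun p => ?_)
  · rw [mul_v, mul_v, ha.vi hb, hb.vi ha, add_comm]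
  · simp only [mul_s, Perm.coe_mul, Function.comp]
    rcases ha.s p with e | e <;> rcases hb.s p with e' | e'
    · rw [e, e', e]
    · rw [e, e', smu hμ ha.s, e]
    · rw [e', e, smu hμ hb.s, e']
    · rw [e, e', smu hμ ha.s, smu hμ hb.s, e, e']

/-- the orbits of a subgroup -/
def orb (A : Subgroup (W ι)) : Setoid ι where
  r p q := ∃ a ∈ A, a.s p = q
  iseqv := ⟨fun p => ⟨1, one_mem _, rfl⟩, fun ⟨a, ha, e⟩ => ⟨a⁻¹, inv_mem ha, by simp [← e]⟩,
    fun ⟨a, ha, e⟩ ⟨b, hb, e'⟩ => ⟨b * a, mul_mem hb ha, by simp [e, e']⟩⟩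

theorem bound [Finite ι] (A : Subgroup (W ι)) (hc : ∀ a ∈ A, ∀ b ∈ A, a * b = b * a)
    [Fintype (Quotient (orb A))] : Nat.card A ≤
      ∏ O : Quotient (orb A), Nat.card {q // Quotient.mk (orb A) q = O} * 2 := by
  have := Nat.card_le_card_of_injective
    (fun (a : A) (O : Quotient (orb A)) => ((⟨a.1.s O.out, by
      conv_rhs => rw [← O.out_eq]
      exact (Quotient.sound (s := orb A) ⟨a.1, a.2, rfl⟩).symm⟩ :
      {q // Quotient.mk (orb A) q = O}), a.1.v (a.1.s O.out))) ?_
  · rwa [Nat.card_pi, Finset.prod_congr rfl fun O _ => by rw [Nat.card_prod, Nat.card_zmod]] at this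
  intro a b h
  have h1 : ∀ O : Quotient (orb A), act a.1 (O.out, 0) = act b.1 (O.out, 0) := fun O => by
    have h2 := congrFun h O
    simp only [Prod.mk.injEq, Subtype.mk.injEq] at h2
    rw [act_apply, act_apply, h2.2, h2.1]
  refine Subtype.ext (act_inj (Equiv.ext fun x => ?_))
  obtain ⟨c, hc', e⟩ : (orb A) (Quotient.mk (orb A) x.1).out x.1 := Quotient.exact (by simp)
  have h2 : act a.1 (act c ((Quotient.mk (orb A) x.1).out, 0)) =
      act b.1 (act c ((Quotient.mk (orb A) x.1).out, 0)) := by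
    rw [← Perm.mul_apply, ← map_mul, hc _ a.2 _ hc', map_mul, Perm.mul_apply,
      h1 (Quotient.mk (orb A) x.1), ← Perm.mul_apply, ← map_mul, hc _ hc' _ b.2, map_mul,
      Perm.mul_apply]
  simp only [act_apply, e, Prod.mk.injEq, add_right_inj] at h2 ⊢
  exact h2

theorem bound' [Finite ι] (A : Subgroup (W ι)) (hc : ∀ a ∈ A, ∀ b ∈ A, a * b = b * a) :
    Nat.card A ≤ 2 ^ Nat.card ι ∧ ((∃ p q r, (orb A) p q ∧ (orb A) p r ∧ p ≠ q ∧ p ≠ r ∧ q ≠ r) →
      Nat.card A < 2 ^ Nat.card ι) := by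
  classical
  have := Fintype.ofFinite (Quotient (orb A))
  have h1 : Nat.card ι = ∑ O : Quotient (orb A), Nat.card {q // Quotient.mk (orb A) q = O} := by
    rw [← Nat.card_sigma]
    exact Nat.card_congr (Equiv.sigmaFiberEquiv _).symm
  have h2 : ∀ m : ℕ, m * 2 ≤ 2 ^ m := fun m => by
    rcases m with _ | m
    · simp
    · rw [pow_succ]; exact Nat.mul_le_mul_right _ Nat.lt_two_pow_self
  have h3 : ∀ m : ℕ, 2 < m → m * 2 < 2 ^ m := fun m hm => by
    obtain ⟨k, rfl⟩ := Nat.exists_eq_add_of_lt hm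
    have := h2 (k + 1)
    have h4 : k < 2 ^ k := Nat.lt_two_pow_self
    rw [show 2 + k + 1 = k + 3 by omega, pow_add]
    omega
  rw [h1, ← Finset.prod_pow_eq_pow_sum]
  refine ⟨(bound A hc).trans (Finset.prod_le_prod' fun O _ => h2 _), ?_⟩
  rintro ⟨p, q, r, e, e', h4, h5, h6⟩
  refine (bound A hc).trans_lt (Finset.prod_lt_prod (fun O _ => ?_) (fun O _ => h2 _)
    ⟨Quotient.mk _ p, Finset.mem_univ _, h3 _ ?_⟩)
  · have : Nonempty {q // Quotient.mk (orb A) q = O} := ⟨⟨O.out, O.out_eq⟩⟩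
    exact Nat.mul_pos Nat.card_pos two_pos
  · have := Fintype.ofFinite ι
    rw [Nat.card_eq_fintype_card, Fintype.two_lt_card_iff]
    exact ⟨⟨p, rfl⟩, ⟨q, (Quotient.sound e).symm⟩, ⟨r, (Quotient.sound e').symm⟩,
      by simpa using h4, by simpa using h5, by simpa using h6⟩

variable {V : Type*} [AddCommGroup V] [Module (ZMod 2) V] {E : V → W ι}

theorem classify [Finite ι] (hE : Em E) (hV : Nat.card V = 2 ^ Nat.card ι) :
    ∃ μ : Perm ι, (∀ p, μ (μ p) = p) ∧ ∀ w, (∃ a, E a = w) ↔ InA μ w := by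
  classical
  have hc : ∀ a ∈ hE.rg, ∀ b ∈ hE.rg, a * b = b * a := by
    rintro _ ⟨a, rfl⟩ _ ⟨b, rfl⟩; exact hE.comm a b
  have h1 : ∀ p q r, (orb hE.rg) p q → (orb hE.rg) p r → p ≠ q → p ≠ r → q = r := by
    intro p q r e e' h h'
    by_contra h''
    have := (bound' _ hc).2 ⟨p, q, r, e, e', h, h', h''⟩
    rw [hE.card, hV] at this
    exact lt_irrefl _ this
  let m : ι → ι := fun p => if h : ∃ q, (orb hE.rg) p q ∧ p ≠ q then h.choose else p
  have m1 : ∀ p q, (orb hE.rg) p q → p ≠ q → m p = q := fun p q e h => by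
    have h2 : ∃ q, (orb hE.rg) p q ∧ p ≠ q := ⟨q, e, h⟩
    simp only [m, dif_pos h2]
    exact h1 p _ _ h2.choose_spec.1 e h2.choose_spec.2 h
  have m2 : ∀ p, (orb hE.rg) p (m p) := fun p => by
    by_cases h2 : ∃ q, (orb hE.rg) p q ∧ p ≠ q
    · simp only [m, dif_pos h2]; exact h2.choose_spec.1
    · simp only [m, dif_neg h2]; exact (orb _).refl _
  have m3 : Function.Involutive m := fun p => by
    by_cases h : p = m p
    · rw [← h, ← h]
    · exact m1 _ _ ((orb _).symm (m2 p)) (Ne.symm h)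
  have h3 : ∀ a ∈ hE.rg, ∀ p, a.s p = p ∨ a.s p = m p := fun a ha p =>
    or_iff_not_imp_left.2 fun h => (m1 _ _ ⟨a, ha, rfl⟩ (Ne.symm h)).symm
  have h2 : hE.rg ≤ AA (μ := m3.toPerm m) m3 := fun a ha => by
    refine ⟨fun p => ?_, h3 a ha⟩
    change a.v (m p) = a.v p
    obtain ⟨b, hb, e⟩ := m2 p
    rcases h3 a ha p with e' | e'
    · have := congrFun (congrArg W.v (hc a ha b hb)) (m p)
      have e2 : a.s (m p) = m p := (smu (μ := m3.toPerm m) m3 (h3 a ha) p).trans (congrArg m e')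
      rw [mul_v, mul_v, sinv (μ := m3.toPerm m) m3 (h3 a ha), e2, add_comm, add_right_inj,
        ← e] at this
      rw [← e, this]; simp
    · obtain ⟨x, rfl⟩ := ha
      have := congrFun (congrArg W.v (hE.sq x)) (m p)
      rw [mul_v, ← e'] at this
      rw [← e']
      simpa using v_eq_of_add this
  have h4 := eq_of_le_of_card_ge h2 (by
    rw [hE.card, hV]; exact (bound' _ fun a ha b hb => InA.comm (μ := m3.toPerm m) m3 ha hb).1)
  exact ⟨m3.toPerm m, m3, fun w => ⟨fun h => h2 h, fun h => by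
    change w ∈ hE.rg; rw [h4]; exact h⟩⟩

section DH

variable [DecidableEq ι]

/-- the product of two coordinate reflections -/
def ee (p q : ι) : W ι := ⟨Pi.single p 1 + Pi.single q 1, 1⟩

theorem ee_comm (p q : ι) : ee p q = ee q p := W.ext (add_comm _ _) rfl

theorem sg_ne {p q r : ι} (h : (ee p q).v r = 1) : r = p ∨ r = q := by
  by_contra hr
  push Not at hr
  simp [ee, hr.1, hr.2] at h

theorem ee_p {p q : ι} (h : p ≠ q) : (ee p q).v p = 1 := by simp [ee, h]
theorem ee_q {p q : ι} (h : p ≠ q) : (ee p q).v q = 1 := by simp [ee, h.symm]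

theorem ee_mem (hμ : ∀ p, μ (μ p) = p) (p : ι) : InA μ (ee p (μ p)) := by
  refine ⟨fun r => ?_, fun _ => Or.inl rfl⟩
  have h1 : μ r = p ↔ r = μ p := ⟨fun e => by rw [← e, hμ], fun e => by rw [e, hμ]⟩
  simp [ee, Pi.single_apply, h1, add_comm]

theorem e_mem {p : ι} (hp : μ p = p) : InA μ ⟨Pi.single p 1, 1⟩ := by
  refine ⟨fun r => ?_, fun _ => Or.inl rfl⟩
  have h1 : μ r = p ↔ r = p := ⟨fun e => μ.injective (e.trans hp.symm), fun e => by rw [e, hp]⟩
  simp [Pi.single_apply, h1]

theorem sw_mem (hμ : ∀ p, μ (μ p) = p) (p : ι) : InA μ ⟨0, swap p (μ p)⟩ := by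
  refine ⟨fun r => rfl, fun r => ?_⟩
  change swap p (μ p) r = r ∨ swap p (μ p) r = μ r
  rw [swap_apply_def]
  split_ifs with h1 h2
  · right; rw [h1]
  · right; rw [h2, hμ]
  · left; rfl

omit [DecidableEq ι] in
theorem ai (s : Perm ι) (p : ι) : s (s⁻¹ p) = p := by simp

omit [DecidableEq ι] in
theorem conj_v0 (w : W ι) (u : ι → ZMod 2) :
    w * ⟨u, 1⟩ * w⁻¹ = ⟨fun p => u (w.s⁻¹ p), 1⟩ :=
  W.ext (funext fun p => by simp [add_right_comm, z2add]) (by simp)

theorem sg_conj (s : Perm ι) (p : ι) :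
    (fun r => (Pi.single p 1 : ι → ZMod 2) (s⁻¹ r)) = Pi.single (s p) 1 := by
  funext r
  simp [Pi.single_apply, Equiv.symm_apply_eq]

/-- the form of a transvection -/
def Fw (p q : ι) (w : W ι) : ZMod 2 := (if w.s p = p then 0 else 1) + w.v p + w.v q

variable {w : W ι} {c : V} {f : V → ZMod 2}

theorem DH (hE : Em E) (hμ : ∀ p, μ (μ p) = p) (hA : ∀ w, (∃ a, E a = w) ↔ InA μ w)
    (h : Tr E w c f) : ∃ p q, p ≠ q ∧ E c = ee p q ∧ (μ p = q ∨ μ p = p) ∧
      ∀ a, f a = Fw p q (E a) := by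
  have key : ∀ u, InA μ u → w * u * w⁻¹ = u ∨ w * u * w⁻¹ = u * E c := fun u hu => by
    obtain ⟨a, rfl⟩ := (hA u).2 hu
    rcases z2 (f a) with e | e
    · left; rw [h.ac, e, zero_smul, add_zero]
    · right; rw [h.ac, e, one_smul, hE.add]
  have hin : ∀ a, InA μ (E a) := fun a => (hA _).1 ⟨a, rfl⟩
  have form : ∀ p q, p ≠ q → E c = ee p q → ∀ a, f a =
      w.v p + (E a).v (w.s⁻¹ p) + w.v ((E a).s⁻¹ p) + (E a).v p := fun p q hpq hc a => by
    have h1 := h.ac a
    rw [hE.add] at h1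
    have h2 : (E (f a • c)).s = 1 ∧ (E (f a • c)).v = f a • (ee p q).v := by
      rcases z2 (f a) with e | e <;> rw [e]
      · simp [hE.zero]
      · simp [hc, ee]
    have h3 := congrArg W.s h1
    have h4 := congrFun (congrArg W.v h1) p
    rw [mul_s (E a), h2.1, mul_one] at h3
    have h5 : (w.s * (E a).s)⁻¹ = w.s⁻¹ * (E a).s⁻¹ := by
      conv_rhs => rw [← h3]
      simp [mul_assoc]
    have h6 : (E (f a • c)).v ((E a).s⁻¹ p) = f a := by
      rw [(hin a).vi (hin _), h2.2, Pi.smul_apply, ee_p hpq, smul_eq_mul, mul_one]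
    rw [mul_v, mul_v, mul_v, inv_v, mul_s, h5, h6] at h4
    simp only [Perm.coe_mul, Function.comp, ai] at h4
    rw [h4, add_right_comm, z2add, zero_add]
  by_cases h1 : ∀ p, w.s p = p ∨ w.s p = μ p
  · have h2 : ∃ p, w.v (μ p) ≠ w.v p := by
      by_contra h2
      push Not at h2
      obtain ⟨a, ha⟩ := h.ex
      have := h.ac a
      rw [InA.comm hμ ⟨h2, h1⟩ (hin a), mul_inv_cancel_right, ha, one_smul] at this
      exact h.ne (left_eq_add.1 (hE.inj this))
    obtain ⟨p, hp⟩ := h2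
    have hp' : w.v p + w.v (μ p) = 1 := (z2 _).resolve_left fun e => hp (v_eq_of_add e).symm
    have hpq : p ≠ μ p := fun e => hp (by rw [← e])
    have h3 : w * ⟨0, swap p (μ p)⟩ * w⁻¹ = ⟨0, swap p (μ p)⟩ * ee p (μ p) := by
      have h4 : w.s * swap p (μ p) = swap p (μ p) * w.s :=
        congrArg W.s (InA.comm hμ (a := ⟨0, w.s⟩) ⟨fun _ => rfl, h1⟩ (sw_mem hμ p))
      refine W.ext (funext fun r => ?_) (by simp [h4, ee])
      rw [mul_v, mul_v, mul_v, inv_v, mul_s, (sw_mem hμ p).vi (ee_mem hμ p)]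
      dsimp only
      rw [h4]
      simp only [Pi.zero_apply, add_zero, mul_inv_rev, swap_inv, Perm.coe_mul, Function.comp,
        ai, zero_add, swap_apply_def]
      split_ifs with e e'
      · rw [e, hp', ee_p hpq]
      · rw [e', add_comm, hp', ee_q hpq]
      · simp [z2add, ee, e, e']
    have h4 : E c = ee p (μ p) := by
      rcases key _ (sw_mem hμ p) with e | e
      · rw [h3, mul_eq_left] at e
        have := ee_p hpq
        rw [e] at this
        exact absurd this (by simp)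
      · exact (mul_left_cancel (h3.symm.trans e)).symm
    refine ⟨p, μ p, hpq, h4, Or.inl rfl, fun a => ?_⟩
    rw [form p _ hpq h4, Fw, InA.vi (a := ⟨0, w.s⟩) ⟨fun _ => rfl, h1⟩ (hin a), (hin a).v,
      sinv hμ (hin a).s, add_right_comm (w.v p)]
    congr 2
    rcases (hin a).s p with e | e
    · rw [e, if_pos rfl, z2add]
    · rw [e, if_neg hpq.symm, hp']
  · have h2 : ∀ p, w.s p ≠ p → w.s p ≠ μ p → μ p = p ∧ E c = ee p (w.s p) := fun p e1 e2 => by
      by_cases hp : μ p = p
      · refine ⟨hp, ?_⟩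
        rcases key _ (e_mem hp) with e | e
        · rw [conj_v0, sg_conj] at e
          have := congrFun (congrArg W.v e) p
          simp [e1.symm] at this
        · rw [conj_v0, sg_conj] at e
          rw [← inv_mul_eq_iff_eq_mul.2 e]
          exact W.ext (funext fun r => rfl) (by simp [ee])
      · exfalso
        have h3 : (w.s⁻¹ (w.s p) : ι) = p := by simp
        have h4 : p ≠ μ p := Ne.symm hp
        have h5 : (E c).s = 1 := by
          rcases key _ (ee_mem hμ p) with e | e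
          · have := congrFun (congrArg W.v e) (w.s p)
            rw [ee, conj_v0] at this
            simp [e1, e2, h4] at this
          · rw [ee, conj_v0] at e
            simpa using (congrArg W.s e).symm
        have h6 : w.s * swap p (μ p) * w.s⁻¹ = swap p (μ p) := by
          rcases key _ (sw_mem hμ p) with e | e
          · exact congrArg W.s e
          · simpa [h5] using congrArg W.s e
        have h7 := congrArg (fun s : Perm ι => s (w.s p)) h6
        simp only [Perm.coe_mul, Function.comp, h3, swap_apply_left,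
          swap_apply_of_ne_of_ne e1 e2] at h7
        exact hp (w.s.injective h7)
    push Not at h1
    obtain ⟨p, e1, e2⟩ := h1
    obtain ⟨hp, hc⟩ := h2 p e1 e2
    have hq : μ (w.s p) = w.s p := by
      have := (hin c).v (w.s p)
      rw [hc, ee_q e1.symm] at this
      refine (sg_ne this).resolve_left fun e => e1 ?_
      rw [← hμ (w.s p), e, hp]
    have e3 : w.s (w.s p) ≠ w.s p := fun e => e1 (w.s.injective e)
    have hq' : w.s (w.s p) = p := by
      have := (h2 _ e3 (by rwa [hq])).2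
      have h3 := ee_p e1.symm
      rw [← hc, this] at h3
      exact ((sg_ne h3).resolve_left e1.symm).symm
    refine ⟨p, w.s p, e1.symm, hc, Or.inr hp, fun a => ?_⟩
    have h4 : (E a).s p = p := by
      rcases (hin a).s p with e | e
      · exact e
      · rw [e, hp]
    have h5 : w.s⁻¹ p = w.s p := by rw [Perm.inv_eq_iff_eq, hq']
    rw [form p _ e1.symm hc, Fw, sinv hμ (hin a).s, h4, if_pos rfl, h5, add_right_comm (w.v p),
      z2add, add_right_comm]

theorem Fw_ee (p q p' q' : ι) : Fw p q (ee p' q') = Fw p' q' (ee p q) := by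
  simp only [Fw, ee, Perm.coe_one, id, if_true, Pi.add_apply, Pi.single_apply, eq_comm (a := p'),
    eq_comm (a := q')]
  ring

end DH

variable {w w' : W ι} {c c' : V} {f f' : V → ZMod 2}

theorem W_sym [Finite ι] (hE : Em E) (hV : Nat.card V = 2 ^ Nat.card ι) (h : Tr E w c f)
    (h' : Tr E w' c' f') : f c' = f' c := by
  classical
  obtain ⟨μ, hμ, hA⟩ := classify hE hV
  obtain ⟨p, q, -, e, -, e1⟩ := DH hE hμ hA h
  obtain ⟨p', q', -, e', -, e1'⟩ := DH hE hμ hA h'
  rw [e1, e1', e, e', Fw_ee]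

/-- a frame of transvections inside `P` -/
def Fr {K : Type*} [Group K] (E : V → K) (P : Subgroup K) {n : ℕ} (c : Fin n → V) : Prop :=
  Function.Injective c ∧ ∀ i, ∃ x ∈ P, ∃ f, Tr E x (c i) f

theorem W_fr {n : ℕ} {E : V → W (Fin n × Bool)} (hE : Em E) (hV : Nat.card V = 2 ^ (n * 2))
    {P : Subgroup (W (Fin n × Bool))} (hP : IsPGroup 2 P) {c : Fin n → V} (h : Fr E P c) :
    E (∑ i, c i) = al0 := by
  classical
  have hV' : Nat.card V = 2 ^ Nat.card (Fin n × Bool) := by simpa using hV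
  obtain ⟨μ, hμ, hA⟩ := classify hE hV'
  choose x hx f hf using h.2
  choose p q hpq e _ e1 using fun i => DH hE hμ hA (hf i)
  have h1 : ∀ i k, (ee (p k) (q k)).v (p i) = (ee (p k) (q k)).v (q i) := fun i k => by
    have h2 : f i (c k) = 0 := (z2 _).resolve_right fun h3 => (hf i).no3 (hf k) hE hP (hx i) (hx k)
      h3 (by rw [← W_sym hE hV' (hf i) (hf k), h3])
    rw [e1, e, Fw, if_pos (show (ee (p k) (q k)).s (p i) = p i from rfl), zero_add] at h2
    exact v_eq_of_add h2
  have h2 : ∀ i k, (ee (p k) (q k)).v (p i) = 1 → i = k := fun i k h3 => by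
    have h4 := (h1 i k).symm.trans h3
    refine h.1 (hE.inj ?_)
    rw [e, e]
    rcases sg_ne h3 with a | a <;> rcases sg_ne h4 with b | b
    · exact absurd (a.trans b.symm) (hpq i)
    · rw [a, b]
    · rw [a, b, ee_comm]
    · exact absurd (a.trans b.symm) (hpq i)
  let m : Fin n × Bool → Fin n × Bool := fun z => if z.2 then p z.1 else q z.1
  have h3 : ∀ z k, (ee (p k) (q k)).v (m z) = if z.1 = k then 1 else 0 := fun z k => by
    have : (ee (p k) (q k)).v (m z) = (ee (p k) (q k)).v (p z.1) := by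
      obtain ⟨i, _ | _⟩ := z
      · exact (h1 i k).symm
      · rfl
    rw [this]
    split_ifs with h4
    · rw [h4, ee_p (hpq k)]
    · exact (z2 _).resolve_right fun h5 => h4 (h2 _ _ h5)
  have h4 : Function.Injective m := by
    rintro ⟨i, b⟩ ⟨k, b'⟩ h5
    have h6 := h3 (i, b) k
    rw [h5, h3, if_pos rfl] at h6
    obtain rfl : i = k := by
      by_contra h7
      rw [if_neg h7] at h6
      exact absurd h6 (by decide)
    cases b <;> cases b'
    · rfl
    · exact absurd h5.symm (hpq i)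
    · exact absurd h5 (hpq i)
    · rfl
  have h5 : ∀ s : Finset (Fin n), E (∑ i ∈ s, c i) = ⟨∑ i ∈ s, (ee (p i) (q i)).v, 1⟩ := fun s => by
    induction s using Finset.induction_on with
    | empty => rw [Finset.sum_empty, hE.zero]; rfl
    | insert i s hi ih =>
      rw [Finset.sum_insert hi, Finset.sum_insert hi, hE.add, ih, e]
      exact W.ext (funext fun r => by simp [ee]) (by simp [ee])
  rw [h5]
  refine W.ext (funext fun r => ?_) rfl
  obtain ⟨z, rfl⟩ := Finite.surjective_of_injective h4 r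
  simp [h3, al0]

end KO
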