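import Cfsg.Agent.KO.W

/-! Frames, the standard subgroup `F`. -/

set_option autoImplicit false

namespace KO

open Subgroup Equiv

theorem conj_of_card {α : Type*} [Fintype α] [DecidableEq α] {σ τ : Perm α} (h : σ ^ 2 = 1)
    (h' : τ ^ 2 = 1) (e : σ.support.card = τ.support.card) : IsConj σ τ := by
  have h1 := Perm.cycleType_of_pow_prime_eq_one h
  have h2 := Perm.cycleType_of_pow_prime_eq_one h'
  rw [← Perm.sum_cycleType, ← Perm.sum_cycleType, h1, h2, Multiset.sum_replicate,
    Multiset.sum_replicate, smul_eq_mul, smul_eq_mul] at e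
  rw [Perm.isConj_iff_cycleType_eq, h1, h2, Nat.eq_of_mul_eq_mul_right two_pos e]

theorem fpf_ext {ι : Type} [Fintype ι] [DecidableEq ι] (hι : (Fintype.card ι : ZMod 2) = 0)
    (v : ι → ZMod 2) (hs : ∑ p, v p = 0) (k : ℕ) : ∀ μ : Perm ι, (∀ p, μ (μ p) = p) →
    (∀ p, v (μ p) = v p) → (Finset.univ.filter fun p => μ p = p).card ≤ k →
    ∃ ν : Perm ι, (∀ p, ν (ν p) = p) ∧ (∀ p, ν p ≠ p) ∧ (∀ p, μ p = p ∨ μ p = ν p) ∧
      ∀ p, v (ν p) = v p := by
  induction k with
  | zero =>
    intro μ h1 h2 h3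
    refine ⟨μ, h1, fun p hp => ?_, fun _ => Or.inr rfl, h2⟩
    have := Finset.card_eq_zero.1 (Nat.le_zero.1 h3)
    exact Finset.notMem_empty p (this ▸ Finset.mem_filter.2 ⟨Finset.mem_univ _, hp⟩)
  | succ k ih =>
    intro μ h1 h2 h3
    by_cases hp : ∃ p, μ p = p
    swap
    · push Not at hp
      exact ⟨μ, h1, hp, fun _ => Or.inr rfl, h2⟩
    obtain ⟨p, hp⟩ := hp
    have h4 : ∃ q, q ≠ p ∧ μ q = q ∧ v q = v p := by
      by_contra h4
      push Not at h4
      have h5 : ∑ r, (v r + (v p + 1)) = 0 := by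
        rw [Finset.sum_add_distrib, hs, Finset.sum_const, Finset.card_univ, nsmul_eq_mul, hι,
          zero_mul, zero_add]
      rw [← Finset.add_sum_erase _ _ (Finset.mem_univ p), Finset.sum_involution (fun r _ => μ r)
        (fun r _ => by rw [h2, z2add]) (fun r hr h6 h7 => h6 (by
          have := h4 r (Finset.mem_erase.1 hr).1 h7
          revert this; generalize v r = a; generalize v p = b; revert a b; decide))
        (fun r hr => Finset.mem_erase.2 ⟨fun e => (Finset.mem_erase.1 hr).1 (by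
          rw [← h1 r, e, hp]), Finset.mem_univ _⟩) (fun r _ => h1 r), ← add_assoc, z2add] at h5
      exact absurd h5 (by decide)
    obtain ⟨q, hq, e1, e2⟩ := h4
    have h5 : ∀ r, r ≠ p → r ≠ q → μ r ≠ p ∧ μ r ≠ q := fun r a b =>
      ⟨fun e => a (by rw [← h1 r, e, hp]), fun e => b (by rw [← h1 r, e, e1])⟩
    obtain ⟨ν, n1, n2, n3, n4⟩ := ih (μ * swap p q) (fun r => by
      by_cases a : r = p
      · simp [a, hp, e1]
      by_cases b : r = q
      · simp [b, hp, e1]
      simp [swap_apply_of_ne_of_ne a b, swap_apply_of_ne_of_ne (h5 r a b).1 (h5 r a b).2, h1])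
      (fun r => by
        rw [Perm.mul_apply, h2, swap_apply_def]
        split_ifs with a b
        · rw [a, e2]
        · rw [b, e2]
        · rfl) (by
        refine Nat.le_of_lt_succ (lt_of_lt_of_le (Finset.card_lt_card
          ((Finset.ssubset_iff_of_subset fun r hr => ?_).2 ⟨p, by simp [hp], by
            rw [Finset.mem_filter]; simp [e1, hq]⟩)) h3)
        · rw [Finset.mem_filter] at hr
          by_cases a : r = p
          · simp [a, hp]
          by_cases b : r = q
          · simp [b, e1]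
          simpa [swap_apply_of_ne_of_ne a b] using hr)
    refine ⟨ν, n1, n2, fun r => ?_, n4⟩
    by_cases a : r = p
    · exact Or.inl (by rw [a, hp])
    by_cases b : r = q
    · exact Or.inl (by rw [b, e1])
    simpa [swap_apply_of_ne_of_ne a b] using n3 r

variable {n : ℕ}

/-- the standard fixed point free involution -/
def m0 : Perm (Fin n × Bool) := Function.Involutive.toPerm (fun z => (z.1, !z.2)) fun z => by simp

theorem m0_apply (z : Fin n × Bool) : m0 z = (z.1, !z.2) := rfl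

theorem m0_sq (z : Fin n × Bool) : m0 (m0 z) = z := by simp [m0_apply]

theorem std_fpf {μ : Perm (Fin n × Bool)} (hμ : ∀ p, μ (μ p) = p) {v : Fin n × Bool → ZMod 2}
    (hv : ∀ p, v (μ p) = v p) (hs : ∑ p, v p = 0) : ∃ τ : Perm (Fin n × Bool),
      (∀ z, μ (τ z) = τ z ∨ μ (τ z) = τ (m0 z)) ∧ ∀ z, v (τ (m0 z)) = v (τ z) := by
  obtain ⟨ν, n1, n2, n3, n4⟩ := fpf_ext (by
    rw [Fintype.card_prod, Fintype.card_bool, Nat.cast_mul]
    exact mul_eq_zero_of_right _ rfl) v hs _ μ hμ hv le_rfl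
  have h1 : IsConj m0 ν := conj_of_card (Equiv.ext m0_sq) (Equiv.ext n1) (by
    congr 1
    ext z
    simp only [Perm.mem_support, n2, iff_true, ne_eq, not_false_eq_true]
    obtain ⟨i, b⟩ := z
    simp [m0_apply])
  obtain ⟨τ, rfl⟩ := isConj_iff.1 h1
  exact ⟨τ, fun z => by simpa using n3 (τ z), fun z => by simpa using n4 (τ z)⟩

section
variable {ι : Type} [DecidableEq ι] {μ : Perm ι} {V : Type*} [AddCommGroup V] [Module (ZMod 2) V]
  {E : V → W ι}

theorem tvF (hE : Em E) (hμ : ∀ p, μ (μ p) = p) (hA : ∀ w, (∃ a, E a = w) ↔ InA μ w) {p : ι}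
    (hp : p ≠ μ p) {c : V} (hc : E c = ee p (μ p)) : ∃ f, Tr E ⟨Pi.single p 1, 1⟩ c f := by
  have hin : ∀ a, InA μ (E a) := fun a => (hA _).1 ⟨a, rfl⟩
  have key : ∀ u : W ι, InA μ u → u.s p = μ p →
      (⟨Pi.single p 1, 1⟩ : W ι) * u * (⟨Pi.single p 1, 1⟩ : W ι)⁻¹ = u * ee p (μ p) := by
    intro u hu e
    refine W.ext (funext fun r => ?_) (by simp [ee])
    rw [mul_v u, hu.vi (ee_mem hμ p)]
    have := congrFun (sg_conj u.s p) r
    simp only [mul_v, inv_v, mul_s, one_mul, inv_one, Perm.coe_one, id, this, e, ee, Pi.add_apply]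
    ring
  refine Tr.mk' hE (fun e => ?_) (fun a => ?_) ?_
  · have := ee_p hp
    rw [← hc, e, hE.zero] at this
    exact absurd this (by simp)
  · rcases (hin a).s p with e | e
    · left
      refine W.ext (funext fun r => ?_) (by simp)
      have := congrFun (sg_conj (E a).s p) r
      simp only [mul_v, inv_v, mul_s, one_mul, inv_one, Perm.coe_one, id, this, e]
      rw [add_right_comm, z2add, zero_add]
    · right; rw [hc, key _ (hin a) e]
  · obtain ⟨a, ha⟩ := (hA _).2 (sw_mem hμ p)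
    refine ⟨a, ?_⟩
    rw [ha, key _ (sw_mem hμ p) (by simp), ne_eq, mul_eq_left]
    intro e
    have := ee_p hp
    rw [e] at this
    exact absurd this (by simp)

theorem tvE (hE : Em E) (hA : ∀ w, (∃ a, E a = w) ↔ InA μ w) {p q : ι}
    (hpq : p ≠ q) (hp : μ p = p) (hq : μ q = q) {c : V} (hc : E c = ee p q) :
    ∃ f, Tr E ⟨0, swap p q⟩ c f := by
  have hin : ∀ a, InA μ (E a) := fun a => (hA _).1 ⟨a, rfl⟩
  have key : ∀ u : W ι, InA μ u →
      (⟨0, swap p q⟩ : W ι) * u * (⟨0, swap p q⟩ : W ι)⁻¹ = ⟨fun r => u.v (swap p q r), u.s⟩ := by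
    intro u hu
    have e1 : u.s p = p := (hu.s p).elim id fun e => e.trans hp
    have e2 : u.s q = q := (hu.s q).elim id fun e => e.trans hq
    refine W.ext (funext fun r => by simp) ?_
    change swap p q * u.s * (swap p q)⁻¹ = u.s
    rw [mul_inv_eq_iff_eq_mul, mul_swap_eq_swap_mul, e1, e2]
  refine Tr.mk' hE (fun e => ?_) (fun a => ?_) ?_
  · have := ee_p hpq
    rw [← hc, e, hE.zero] at this
    exact absurd this (by simp)
  · rw [key _ (hin a)]
    by_cases e : (E a).v p = (E a).v q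
    · left
      refine W.ext (funext fun r => ?_) rfl
      simp only [swap_apply_def]
      split_ifs with a b
      · rw [a, e]
      · rw [b, e]
      · rfl
    · right
      refine W.ext (funext fun r => ?_) (by simp [hc, ee])
      rw [mul_v, (hin a).vi (hin c), hc]
      simp only [swap_apply_def]
      have : ∀ x y : ZMod 2, x ≠ y → x = y + 1 := by decide
      split_ifs with a b
      · rw [a, ee_p hpq]; exact this _ _ (Ne.symm e)
      · rw [b, ee_q hpq]; exact this _ _ e
      · simp [ee, a, b]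
  · obtain ⟨a, ha⟩ := (hA _).2 (e_mem hp)
    refine ⟨a, fun e => ?_⟩
    rw [ha, key _ (e_mem hp)] at e
    have := congrFun (congrArg W.v e) p
    simp [hpq.symm] at this

omit [DecidableEq ι] in
/-- the stabilizer of the orbits of `μ` -/
def DD (hμ : ∀ p, μ (μ p) = p) : Subgroup (W ι) where
  carrier := {w | ∀ p, w.s p = p ∨ w.s p = μ p}
  mul_mem' ha hb := smul' hμ ha hb
  one_mem' _ := Or.inl rfl
  inv_mem' ha := by
    intro p
    rw [inv_s, sinv hμ ha]; exact ha p

omit [DecidableEq ι] in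
theorem DD_pg (hμ : ∀ p, μ (μ p) = p) : IsPGroup 2 (DD hμ) := by
  rintro ⟨w, hw⟩
  refine ⟨2, Subtype.ext ?_⟩
  have h1 : (w * w).s = 1 := Equiv.ext (ssq hμ hw)
  change w ^ 4 = 1
  rw [show w ^ 4 = w * w * (w * w) by simp only [pow_succ, pow_zero, one_mul, mul_assoc]]
  refine W.ext (funext fun p => ?_) (by rw [mul_s, h1]; rfl)
  rw [mul_v (w * w), h1]
  exact z2add _

end

theorem ex_frame {V : Type*} [AddCommGroup V] [Module (ZMod 2) V] {E : V → W (Fin n × Bool)}
    (hE : Em E) (hV : Nat.card V = 2 ^ (n * 2)) : ∃ D : Subgroup (W (Fin n × Bool)),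
      IsPGroup 2 D ∧ (∀ a, E a ∈ D) ∧ ∃ c : Fin n → V, Fr E D c := by
  obtain ⟨μ, hμ, hA⟩ := classify hE (by simpa using hV)
  obtain ⟨τ, h1, -⟩ := std_fpf hμ (v := 0) (fun _ => rfl) (by simp)
  have hν : ∀ p, (τ * m0 * τ⁻¹ : Perm _) ((τ * m0 * τ⁻¹ : Perm _) p) = p := fun p => by
    simp [m0_sq]
  have h2 : ∀ p, μ p = p ∨ μ p = (τ * m0 * τ⁻¹ : Perm _) p := fun p => by simpa using h1 (τ⁻¹ p)
  have hne : ∀ i, τ (i, false) ≠ τ (i, true) := fun i => by simp
  have h3 : ∀ i, ∃ c, E c = ee (τ (i, false)) (τ (i, true)) ∧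
      ∃ x ∈ DD hν, ∃ f, Tr E x c f := fun i => by
    rcases h1 (i, false) with e | e
    · have e' : μ (τ (i, true)) = τ (i, true) := (h1 (i, true)).resolve_right fun e' =>
        hne i (μ.injective (e.trans e'.symm))
      obtain ⟨c, hc⟩ := (hA (ee _ _)).2 (by
        have := (AA hμ).mul_mem (e_mem e) (e_mem e')
        exact this)
      refine ⟨c, hc, _, ?_, tvE hE hA (hne i) e e' hc⟩
      have := (sw_mem hν (τ (i, false))).s
      rwa [show (τ * m0 * τ⁻¹ : Perm _) (τ (i, false)) = τ (i, true) by simp [m0_apply]] at this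
    · obtain ⟨c, hc⟩ := (hA _).2 (ee_mem hμ (τ (i, false)))
      exact ⟨c, by rw [hc, e]; rfl, _, fun _ => Or.inl rfl, tvF hE hμ hA (by rw [e]; exact hne i) hc⟩
  choose c h4 h5 using h3
  refine ⟨DD hν, DD_pg hν, fun a p => ?_, c, fun i k e => ?_, h5⟩
  · rcases ((hA _).1 ⟨a, rfl⟩).s p with e | e
    · exact Or.inl e
    · exact (h2 p).imp e.trans e.trans
  · have := ee_p (hne i)
    rw [← h4, e, h4] at this
    rcases sg_ne this with a | a
    · simpa using a
    · simp at a

/-- coordinates on `F` -/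
abbrev VV (n : ℕ) := Fin n → ZMod 2 × ZMod 2

theorem card_VV : Nat.card (VV n) = 2 ^ (n * 2) := by
  rw [Nat.card_fun, Nat.card_prod, Nat.card_zmod, Nat.card_fin, mul_comm n, pow_mul]; rfl

/-- the standard embedding -/
def η (a : VV n) : W (Fin n × Bool) := ⟨fun z => (a z.1).1,
  Function.Involutive.toPerm (fun z => if (a z.1).2 = 0 then z else m0 z) fun z => by
    by_cases h : (a z.1).2 = 0 <;> simp [h, m0_apply]⟩

theorem η_s (a : VV n) (z : Fin n × Bool) : (η a).s z = if (a z.1).2 = 0 then z else m0 z := rfl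
theorem η_v (a : VV n) (z : Fin n × Bool) : (η a).v z = (a z.1).1 := rfl

theorem m0_ne (z : Fin n × Bool) : m0 z ≠ z := by
  obtain ⟨i, b⟩ := z
  simp [m0_apply]

theorem η_in (a : VV n) : InA m0 (η a) := ⟨fun _ => rfl, fun z => by
  rw [η_s]; split_ifs <;> simp⟩

theorem η_em : Em (η : VV n → _) := by
  refine ⟨fun a b => W.ext (funext fun z => ?_) (Equiv.ext fun z => ?_), fun a b h => ?_⟩
  · rw [mul_v, (η_in a).vi (η_in b)]; rfl
  · simp only [mul_s, Perm.mul_apply, η_s, Pi.add_apply, Prod.snd_add]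
    rcases z2 (a z.1).2 with e | e <;> rcases z2 (b z.1).2 with e' | e' <;>
      simp [e, e', m0_apply, z2add]
  · funext i
    refine Prod.ext (congrFun (congrArg W.v h) (i, false)) ?_
    have := congrArg (fun w : W _ => w.s (i, false)) h
    simp only [η_s] at this
    rcases z2 (a i).2 with e | e <;> rcases z2 (b i).2 with e' | e' <;>
      simp [e, e', m0_apply] at this ⊢

theorem η_A (w : W (Fin n × Bool)) : (∃ a, η a = w) ↔ InA m0 w := by
  refine ⟨by rintro ⟨a, rfl⟩; exact η_in a, fun h => ?_⟩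
  have := eq_of_le_of_card_ge (H := η_em.rg) (K := AA m0_sq) (by rintro _ ⟨a, rfl⟩; exact η_in a)
    (by rw [η_em.card, card_VV]
        simpa using (bound' (AA (m0_sq (n := n))) fun a ha b hb => InA.comm m0_sq ha hb).1)
  change w ∈ η_em.rg
  rw [this]; exact h

/-- the block centres -/
def cz (i : Fin n) : VV n := Pi.single i (1, 0)
/-- the central involution -/
def al : VV n := fun _ => (1, 0)

theorem η_al : η (al : VV n) = al0 := W.ext rfl (Equiv.ext fun z => by simp [η_s, al, al0])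

theorem cz_snd (i k : Fin n) : (cz i k).2 = 0 := by
  simp only [cz, Pi.single_apply]; split_ifs <;> rfl

theorem η_cz (i : Fin n) (b : Bool) : η (cz i) = ee (i, b) (m0 (i, b)) := by
  refine W.ext (funext fun ⟨k, c⟩ => ?_) (Equiv.ext fun z => by simp [η_s, cz_snd, ee])
  by_cases h : k = i
  · cases b <;> cases c <;> simp [η_v, cz, ee, h, m0_apply]
  · simp [η_v, cz, ee, h, m0_apply]

theorem DH_std {w : W (Fin n × Bool)} {c : VV n} {f : VV n → ZMod 2} (h : Tr η w c f) :
    ∃ i, c = cz i ∧ ∀ a, f a = (a i).2 := by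
  obtain ⟨⟨i, b⟩, q, -, e, e1, e2⟩ := DH η_em m0_sq η_A h
  obtain rfl := e1.resolve_right (m0_ne _)
  refine ⟨i, η_em.inj (e.trans (η_cz i b).symm), fun a => ?_⟩
  rw [e2, Fw, (η_in a).v, add_assoc, z2add, add_zero, η_s]
  rcases z2 (a i).2 with e | e <;> simp [e, m0_ne]

theorem cz_inj {i k : Fin n} (h : cz i = cz k) : i = k := by
  by_contra hk
  have := congrFun h i
  simp [cz, hk] at this

theorem ex_tau (i : Fin n) : ∃ w, Tr η w (cz i) fun a => (a i).2 := by
  obtain ⟨f, h⟩ := tvF η_em m0_sq η_A (m0_ne (i, false)).symm (η_cz i false)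
  obtain ⟨k, e, e'⟩ := DH_std h
  obtain rfl := cz_inj e
  obtain rfl : f = fun a => (a i).2 := funext e'
  exact ⟨_, h⟩

theorem ex_bp (ρ : Perm (Fin n)) : ∃ w : W (Fin n × Bool), ∀ a,
    w * η a * w⁻¹ = η fun i => a (ρ⁻¹ i) := by
  refine ⟨⟨0, prodCongr ρ (Equiv.refl _)⟩, fun a => W.ext (funext fun z => ?_)
    (Equiv.ext fun z => ?_)⟩
  · simp [η_v, Perm.inv_def]
  · by_cases h : (a (ρ⁻¹ z.1)).2 = 0
    · simp [η_s, Perm.inv_def] at h ⊢
      simp [h, Prod.map]
    · simp [η_s, Perm.inv_def] at h ⊢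
      simp [h, m0_apply]

/-- the number of blocks involved -/
def wt (a : VV n) : ℕ := (Finset.univ.filter fun i => a i ≠ 0).card
/-- the sign -/
def Ly (a : VV n) : ZMod 2 := ∑ i, (a i).2

theorem wt_conj {w : W (Fin n × Bool)} {a b : VV n} (h : w * η a * w⁻¹ = η b) : wt a = wt b := by
  have key : ∀ a : VV n, (act (η a)).support.card = wt a * 4 := fun a => by
    have : (act (η a)).support = ((Finset.univ.filter fun i => a i ≠ 0) ×ˢ Finset.univ) ×ˢ
        Finset.univ := by
      ext ⟨⟨i, c⟩, d⟩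
      simp only [Perm.mem_support, act_apply, η_v, η_s, Finset.mem_product, Finset.mem_filter,
        Finset.mem_univ, true_and, and_true, ne_eq, Prod.ext_iff (x := a i)]
      rcases z2 (a i).2 with e | e <;> simp [e, m0_apply]
    rw [this]; simp [wt, mul_assoc]
  have := key b
  rw [← h, map_mul, map_mul, map_inv, Perm.card_support_conj, key] at this
  omega

theorem Ly_conj {w : W (Fin n × Bool)} {a b : VV n} (h : w * η a * w⁻¹ = η b) : Ly a = Ly b := by
  have key : ∀ a : VV n, (η a).s.support.card =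
      (Finset.univ.filter fun i => (a i).2 ≠ 0).card * 2 := fun a => by
    have : (η a).s.support = (Finset.univ.filter fun i => (a i).2 ≠ 0) ×ˢ Finset.univ := by
      ext ⟨i, c⟩
      rcases z2 (a i).2 with e | e <;> simp [η_s, e, m0_apply]
    rw [this]; simp
  have key2 : ∀ a : VV n, Ly a = (Finset.univ.filter fun i => (a i).2 ≠ 0).card := fun a => by
    rw [Finset.card_filter, Nat.cast_sum]
    exact Finset.sum_congr rfl fun i _ => by rcases z2 (a i).2 with e | e <;> simp [e]
  have := key b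
  rw [← h, mul_s, mul_s, inv_s, Perm.card_support_conj, key] at this
  rw [key2, key2, Nat.eq_of_mul_eq_mul_right two_pos this]

/-- the parity character -/
def par : W (Fin n × Bool) →* ℤˣ := MonoidHom.mk' (fun w => if ∑ p, w.v p = 0 then 1 else -1)
  fun a b => by
    simp only [mul_v, Finset.sum_add_distrib]
    rw [Equiv.sum_comp a.s⁻¹ b.v]
    rcases z2 (∑ p, a.v p) with e | e <;> rcases z2 (∑ p, b.v p) with e' | e' <;>
      simp [e, e', z2add]

theorem inv_par {w : W (Fin n × Bool)} (hw : w * w = 1) (h : par w = 1) :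
    ∃ u a, u⁻¹ * w * u = η a := by
  have h1 : ∀ p, w.s (w.s p) = p := fun p => congrArg (fun u : W _ => u.s p) hw
  have h2 : ∑ p, w.v p = 0 := by
    by_contra h2
    have : par w = -1 := if_neg h2
    rw [h] at this
    exact absurd this (by decide)
  obtain ⟨τ, e1, e2⟩ := std_fpf h1 (v := w.v) (fun p => by
    simpa using v_eq_of_add (congrFun (congrArg W.v hw) (w.s p))) h2
  obtain ⟨a, ha⟩ := (η_A ((⟨0, τ⟩ : W _)⁻¹ * w * ⟨0, τ⟩)).2 ⟨fun z => by simpa using e2 z,
    fun z => by simpa [Equiv.symm_apply_eq] using e1 z⟩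
  exact ⟨_, a, ha.symm⟩

theorem sign_sg (i : Fin n) : Perm.sign (η (Pi.single i (0, 1))).s = -1 := by
  rw [← Perm.sign_swap (x := (i, false)) (y := (i, true)) (by simp)]
  congr 1
  ext1 ⟨k, b⟩
  by_cases h : k = i
  · cases b <;> simp [η_s, h, m0_apply]
  · simp [η_s, h, swap_apply_of_ne_of_ne]

end KO
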